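import Cfsg.Agent.H10.JC2
import Cfsg.Agent.H3.Alperin

/-! Groups with short chains of subgroups, I: chains, the local set-up. -/

set_option autoImplicit false
set_option linter.unusedSectionVars false

namespace H5Ch

open Cfsg H10

universe u

section Len

variable {G : Type*} [Group G]

/-- there is a chain of length `n` below `H` -/
def Len : ℕ → Subgroup G → Prop
  | 0, _ => True
  | n + 1, H => ∃ K, K < H ∧ Len n K

theorem Len.succ {n : ℕ} {K H : Subgroup G} (h : Len n K) (hlt : K < H) : Len (n + 1) H :=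
  ⟨K, hlt, h⟩

theorem Len.mono {n : ℕ} {K H : Subgroup G} (h : Len n K) (hle : K ≤ H) : Len n H := by
  cases n with
  | zero => trivial
  | succ n => obtain ⟨X, h1, h2⟩ := h; exact ⟨X, h1.trans_le hle, h2⟩

theorem Len.chain {n : ℕ} : ∀ {H : Subgroup G}, Len n H →
    ∃ c : Fin (n + 1) → Subgroup G, StrictAnti c ∧ c 0 = H := by
  induction n with
  | zero => intro H _; exact ⟨fun _ => H, Fin.strictAnti_iff_succ_lt.2 (fun i => i.elim0), rfl⟩
  | succ n ih =>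
    rintro H ⟨K, h1, h2⟩
    obtain ⟨c, hc, h0⟩ := ih h2
    refine ⟨Fin.cons H c, Fin.strictAnti_iff_succ_lt.2 fun i => ?_, rfl⟩
    refine Fin.cases ?_ (fun j => ?_) i
    · simpa [h0] using h1
    · simpa using hc (Fin.castSucc_lt_succ (i := j))

theorem len_pgroup [Finite G] (k : ℕ) : ∀ {P : Subgroup G}, IsPGroup 2 P → 2 ^ k ≤ Nat.card P →
    Len k P := by
  induction k with
  | zero => intro _ _ _; trivial
  | succ k ih =>
    intro P hP h
    obtain ⟨m, hm⟩ := IsPGroup.iff_card.1 hP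
    have hk : k + 1 ≤ m := by
      rw [hm] at h; exact (Nat.pow_le_pow_iff_right (by norm_num)).1 h
    obtain ⟨K, hK⟩ := Sylow.exists_subgroup_card_pow_prime (G := P) 2 (n := k)
      (by rw [hm]; exact pow_dvd_pow 2 (by omega))
    have h1 : Nat.card (K.map P.subtype) = 2 ^ k := by rw [card_map_subtype, hK]
    refine ⟨K.map P.subtype, lt_of_le_of_ne (Subgroup.map_subtype_le _) fun e => ?_,
      ih (hP.to_le (Subgroup.map_subtype_le _)) h1.ge⟩
    rw [e] at h1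
    rw [h1, pow_succ] at h
    have : 0 < 2 ^ k := by positivity
    omega

theorem Len.unbar {M W : Subgroup G} [(W.subgroupOf M).Normal] {m : ℕ} (hm : Len m (M ⊓ W))
    (n : ℕ) : ∀ {B : Subgroup (M ⧸ W.subgroupOf M)}, Len n B → Len (m + n) (H10.unbar M W B) := by
  induction n with
  | zero => intro B _; exact hm.mono (inf_le_unbar B)
  | succ n ih =>
    rintro B ⟨K, h1, h2⟩
    exact (ih h2).succ (lt_of_le_not_ge (unbar_mono h1.le) fun h => h1.not_ge (unbar_le_unbar.1 h))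

end Len

section NP

variable {G : Type*} [Group G] [Finite G]

/-- `M` has a normal `2`-complement -/
def NP (M : Subgroup G) : Prop := HasNormalPComplement 2 M

theorem NP.of_le {K M : Subgroup G} (h : NP M) (hle : K ≤ M) : NP K :=
  H3.hasNormalPComplement_of_le hle h

theorem NP.of_two {M : Subgroup G} (h : IsPGroup 2 M) : NP M :=
  H3.hasNormalPComplement_of_isPGroup h

theorem NP.cj {M : Subgroup G} (h : NP M) (g : G) : NP (H10.cj g M) :=
  (H3.hasNormalPComplement_congr (cjEquiv g M)).1 h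

theorem NP.cent {M B : Subgroup G} (h : NP M) (hB : IsPGroup 2 B) (hle : B ≤ M) {x : G}
    (hx : x ∈ M) (hn : x ∈ NN(B)) (ho : (orderOf x).Coprime 2) : x ∈ CC(B) := by
  have := H3.mem_centralizer_of_hasNormalPComplement h (isPGroup_subgroupOf hB M) (g := ⟨x, hx⟩)
    (by rw [NN_subgroupOf hle]; exact hn) (by rwa [Subgroup.orderOf_mk])
  rw [CC_subgroupOf hle] at this
  exact this

theorem NP.bar {M W A : Subgroup G} [(W.subgroupOf M).Normal] (h : NP A) (hA : A ≤ M) :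
    NP (H10.bar M W A) :=
  H3.hasNormalPComplement_map _ ((H3.hasNormalPComplement_subgroupOf hA).2 h)

theorem np_of_hom {X Z : Type*} [Group X] [Group Z] [Finite X] [Finite Z] (f : X →* Z)
    (hk : f.ker ≤ Subgroup.center X) (h : HasNormalPComplement 2 Z) : HasNormalPComplement 2 X :=
  H3.hasNormalPComplement_of_quotient_central f.ker hk
    (H3.hasNormalPComplement_of_injective (QuotientGroup.kerLift f)
      (QuotientGroup.kerLift_injective f) h)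

theorem NP.of_bar {M W : Subgroup G} [(W.subgroupOf M).Normal] (hc : resOf 2 M ≤ CC(W))
    (h : NP (⊤ : Subgroup (M ⧸ W.subgroupOf M))) : NP M := by
  refine H3.hasNormalPComplement_of_pResidual_le le_rfl (np_of_hom
    ((QuotientGroup.mk' (W.subgroupOf M)).comp (pResidual 2 M).subtype) ?_
    (H3.hasNormalPComplement_top.1 h))
  intro x hx
  rw [MonoidHom.mem_ker, MonoidHom.comp_apply, QuotientGroup.mk'_apply,
    QuotientGroup.eq_one_iff] at hx
  rw [Subgroup.mem_center_iff]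
  intro y
  have hy : ((y : M) : G) ∈ resOf 2 M := ⟨y, y.2, rfl⟩
  exact Subtype.ext (Subtype.ext (mem_CC.1 (hc hy) _ hx).symm)

theorem eq_one_of_two {Y : Subgroup G} (hY : IsPGroup 2 Y) {x : G} (hx : x ∈ Y)
    (ho : (orderOf x).Coprime 2) : x = 1 := by
  obtain ⟨k, hk⟩ := isPGroup_iff_mem.1 hY x hx
  exact H3.eq_one_of_pow_of_coprime hk ho

end NP

section Hy

variable {G : Type u} [Group G] [Finite G]

/-- the global hypothesis -/
structure Hy (Y : Subgroup G) (z : G) : Prop where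
  syl : IsSylowIn 2 Y ⊤
  nnp : ¬ NP (⊤ : Subgroup G)
  ov : ∀ A : Subgroup G, A ≠ ⊥ → IsPGroup 2 A → Y ≤ NN(A) → NP NN(A)
  oz : orderOf z = 2
  zY : z ∈ Y
  zc : ∀ y ∈ Y, y * z = z * y
  cz : ∀ g, g * z = z * g → g ∈ Y

/-- the local set-up -/
structure Loc (Y : Subgroup G) (z : G) (R L : Subgroup G) : Prop where
  hy : Hy Y z
  lt : R < Y
  le : R ≤ L
  nnp : ¬ NP L
  min : ∀ M, R ≤ M → M < L → NP M
  ne : pCoreOf 2 L ≠ ⊥
  max : ∀ B P : Subgroup G, B ≠ ⊥ → IsPGroup 2 B → ¬ NP NN(B) → IsPGroup 2 P → P ≤ NN(B) →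
    Nat.card P ≤ Nat.card R

theorem Hy.two {Y : Subgroup G} {z : G} (h : Hy Y z) {M B : Subgroup G} (hM : NP M)
    (hB : IsPGroup 2 B) (hle : B ≤ M) (hn : M ≤ NN(B)) (hz : z ∈ B) : IsPGroup 2 M :=
  isPGroup_of_forall_coprime fun x hx ho => eq_one_of_two h.syl.isPGroup
    (h.cz x (mem_CC.1 (hM.cent hB hle hx (hn hx) ho) z hz).symm) ho

theorem Hy.z2 {Y : Subgroup G} {z : G} (h : Hy Y z) : z * z = 1 := by
  rw [← pow_two, ← h.oz, pow_orderOf_eq_one]

theorem Hy.z1 {Y : Subgroup G} {z : G} (h : Hy Y z) : z ≠ 1 := ne_one_of_orderOf_eq h.oz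

theorem Hy.exists_loc {Y : Subgroup G} {z : G} (h : Hy Y z) : ∃ R L, Loc Y z R L := by
  have h0 : ∃ Q : Subgroup G, IsPGroup 2 Q ∧ Q ≠ ⊥ ∧ ¬ NP NN(Q) := by
    by_contra hc
    push Not at hc
    exact h.nnp (H3.hasNormalPComplement_top.2 (H3.frobenius_local hc))
  obtain ⟨Q, hQ, hQ0, hQn⟩ := h0
  obtain ⟨⟨A0, P⟩, ⟨h1, h2, h3, h4, h5⟩, hmax⟩ := Set.exists_max_image
    {x : Subgroup G × Subgroup G | x.1 ≠ ⊥ ∧ IsPGroup 2 x.1 ∧ ¬ NP NN(x.1) ∧ IsPGroup 2 x.2 ∧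
      x.2 ≤ NN(x.1)} (fun x => Nat.card x.2) (Set.toFinite _)
    ⟨(Q, ⊥), hQ0, hQ, hQn, IsPGroup.of_bot, bot_le⟩
  dsimp only at h1 h2 h3 h4 h5 hmax
  obtain ⟨g, -, hg⟩ := h.syl.exists_cj_le h4 le_top
  have hA0 : cj g A0 ≠ ⊥ := fun e => h1 (cj_eq_bot.1 e)
  have hA := isPGroup_cj g h2
  have hR := isPGroup_cj g h4
  have hnp : ¬ NP NN(cj g A0) := fun e => h3 (by
    have := e.cj g⁻¹
    rwa [← cj_normalizer, cj_inv_cj] at this)
  have hRN : cj g P ≤ NN(cj g A0) := by rw [← cj_normalizer]; exact cj_mono g h5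
  have hm : ∀ B X : Subgroup G, B ≠ ⊥ → IsPGroup 2 B → ¬ NP NN(B) → IsPGroup 2 X → X ≤ NN(B) →
      Nat.card X ≤ Nat.card (cj g P) := fun B X a b c d e => by
    rw [card_cj]; exact hmax (B, X) ⟨a, b, c, d, e⟩
  generalize cj g A0 = A at *
  generalize cj g P = R at *
  have hAR : A ≤ R := by
    have := hm A (R ⊔ A) hA0 hA hnp (isPGroup_sup_of_NN hR hA hRN) (sup_le hRN (le_NN_self _))
    exact le_sup_right.trans (Subgroup.eq_of_le_of_card_ge le_sup_left this).ge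
  obtain ⟨L, ⟨hL1, hL2, hL3⟩, hmin⟩ := (wellFounded_lt (α := Subgroup G)).has_min
    {L | R ≤ L ∧ L ≤ NN(A) ∧ ¬ NP L} ⟨NN(A), hRN, le_rfl, hnp⟩
  refine ⟨R, L, h, lt_of_le_of_ne hg fun e => hnp (h.ov A hA0 hA (e ▸ hRN)), hL1, hL3,
    fun M a b => by_contra fun c => hmin M ⟨a, b.le.trans hL2, c⟩ b,
    fun e => hA0 (eq_bot_of_pCoreOf e hA (hAR.trans hL1) hL2), hm⟩

namespace Loc

variable {Y : Subgroup G} {z : G} {R L : Subgroup G} (h : Loc Y z R L)
include h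

theorem two : IsPGroup 2 R := h.hy.syl.isPGroup.to_le h.lt.le

theorem eq {B P : Subgroup G} (h0 : B ≠ ⊥) (hB : IsPGroup 2 B) (hn : ¬ NP NN(B))
    (hP : IsPGroup 2 P) (h1 : R ≤ P) (h2 : P ≤ NN(B)) : P = R :=
  (Subgroup.eq_of_le_of_card_ge h1 (h.max B P h0 hB hn hP h2)).symm

theorem sylN {B : Subgroup G} (h0 : B ≠ ⊥) (hB : IsPGroup 2 B) (hn : ¬ NP NN(B))
    (h1 : R ≤ NN(B)) : IsSylowIn 2 R NN(B) := by
  obtain ⟨P, hP, hle⟩ := exists_isSylowIn_ge h.two h1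
  rwa [h.eq h0 hB hn hP.isPGroup hle hP.le] at hP

theorem nnpN {B : Subgroup G} (hL : L ≤ NN(B)) : ¬ NP NN(B) := fun e => h.nnp (e.of_le hL)

theorem syl : IsSylowIn 2 R L :=
  (h.sylN h.ne (isPGroup_pCoreOf L) (h.nnpN (le_NN_pCoreOf L))
    (h.le.trans (le_NN_pCoreOf L))).of_le h.le (le_NN_pCoreOf L)

theorem OR : pCoreOf 2 L ≤ R := h.syl.pCoreOf_le

theorem mem {B : Subgroup G} (h0 : B ≠ ⊥) (hB : IsPGroup 2 B) (hn : ¬ NP NN(B))
    (h1 : R ≤ NN(B)) {y : G} (hy : y ∈ Y) (hyn : y ∈ NN(B)) : y ∈ R := by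
  rw [← h.eq h0 hB hn (P := Y ⊓ NN(B)) (h.hy.syl.isPGroup.to_le inf_le_left)
    (le_inf h.lt.le h1) inf_le_right]
  exact ⟨hy, hyn⟩

theorem memO {y : G} (hy : y ∈ Y) (hyn : y ∈ NN(pCoreOf 2 L)) : y ∈ R :=
  h.mem h.ne (isPGroup_pCoreOf L) (h.nnpN (le_NN_pCoreOf L)) (h.le.trans (le_NN_pCoreOf L)) hy hyn

theorem zR : z ∈ R :=
  h.memO h.hy.zY (CC_le_NN _ (mem_CC.2 fun x hx => h.hy.zc x (h.lt.le (h.OR hx))))

theorem not_two : ¬ IsPGroup 2 L := fun e => h.nnp (NP.of_two e)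

theorem ltL : R < L := lt_of_le_of_ne h.le fun e => h.not_two (e ▸ h.two)

theorem exists_s : ∃ s ∈ Y, s ∈ NN(R) ∧ s ∉ R := by
  obtain ⟨s, hs, hn⟩ := SetLike.exists_of_lt (lt_inf_NN h.hy.syl.isPGroup h.lt)
  exact ⟨s, hs.1, hs.2, hn⟩

theorem O_lt : pCoreOf 2 L < R := by
  refine lt_of_le_of_ne h.OR fun e => ?_
  obtain ⟨s, h1, h2, h3⟩ := h.exists_s
  exact h3 (h.memO h1 (e ▸ h2))

/-! ### the case `z ∉ O₂(L)` -/

theorem NLB (hz : z ∉ pCoreOf 2 L) {B : Subgroup G} (hB : B ≤ R) (hzB : z ∈ B)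
    (hn : R ≤ NN(B)) : L ⊓ NN(B) ≤ R := by
  have hB2 := h.two.to_le hB
  have h1 : R ≤ L ⊓ NN(B) := le_inf h.le hn
  have h2 : L ⊓ NN(B) < L := lt_of_le_of_ne inf_le_left fun e =>
    hz (le_pCoreOf hB2 (hB.trans h.le) (e.ge.trans inf_le_right) hzB)
  exact (h.syl.eq_of_le (h.hy.two (h.min _ h1 h2) hB2 (hB.trans h1) inf_le_right hzB) h1
    inf_le_left).le

theorem resC (hz : z ∉ pCoreOf 2 L) : resOf 2 L ≤ CC(pCoreOf 2 L) := by
  have hn : L ≤ NN(L ⊓ CC(pCoreOf 2 L)) := le_NN_inf (le_NN_self _) (le_NN_CC (le_NN_pCoreOf L))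
  have h1 := h.syl.inf_normal inf_le_left hn
  have h2 := h1.frattini_sup inf_le_left hn
  have h3 := h.NLB hz (B := R ⊓ (L ⊓ CC(pCoreOf 2 L))) inf_le_left
    ⟨h.zR, h.le h.zR, mem_CC.2 fun x hx => h.hy.zc x (h.lt.le (h.OR hx))⟩
    (le_NN_inf (le_NN_self _) (h.le.trans hn))
  have h4 : L ≤ (L ⊓ CC(pCoreOf 2 L)) ⊔ R := h2.ge.trans (sup_le_sup_left h3 _)
  exact ((resOf_mono h4).trans (resOf_sup_le h.two (h.le.trans hn))).trans inf_le_right

omit h in
instance normalO (L : Subgroup G) : ((pCoreOf 2 L).subgroupOf L).Normal :=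
  normal_subgroupOf (le_NN_pCoreOf L)

omit h in
theorem mk_eq_iff {a b : G} (ha : a ∈ L) (hb : b ∈ L) {W : Subgroup G} [(W.subgroupOf L).Normal] :
    (QuotientGroup.mk (⟨a, ha⟩ : L) : L ⧸ W.subgroupOf L) = QuotientGroup.mk ⟨b, hb⟩ ↔
      a⁻¹ * b ∈ W := by
  rw [QuotientGroup.eq]; rfl

theorem quot (hz : z ∉ pCoreOf 2 L) :
    Hy (bar L (pCoreOf 2 L) R) (QuotientGroup.mk ⟨z, h.le h.zR⟩) := by
  have hAL : L ⊓ pCoreOf 2 L = pCoreOf 2 L := inf_eq_right.2 (pCoreOf_le L)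
  have hz2 := h.hy.z2
  refine ⟨?_, fun e => h.nnp (NP.of_bar (h.resC hz) e), fun A h0 hA hn => ?_, ?_,
    mem_bar _ h.zR, ?_, ?_⟩
  · have := h.syl.bar (W := pCoreOf 2 L) le_rfl
    rwa [bar_self] at this
  · have h1 : R ≤ unbar L (pCoreOf 2 L) NN(A) := (bar_le_iff h.le).1 hn
    have h2 : unbar L (pCoreOf 2 L) NN(A) < L := lt_of_le_of_ne (unbar_le _) fun e => h0 (by
      have h3 : NN(A) = ⊤ := by rw [← bar_unbar (M := L) (W := pCoreOf 2 L) NN(A), e, bar_self]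
      have := normal_of_top_le_NN h3.ge
      have h4 := le_pCoreOf (isPGroup_unbar hA (hAL.symm ▸ isPGroup_pCoreOf L)) (unbar_le _)
        (le_NN_unbar_of_normal (M := L) (W := pCoreOf 2 L) A)
      rw [← bar_unbar (M := L) (W := pCoreOf 2 L) A, bar_eq_bot (unbar_le _)]
      exact h4)
    have := (h.min _ h1 h2).bar (W := pCoreOf 2 L) (unbar_le _)
    rwa [bar_unbar] at this
  · refine orderOf_eq_prime ?_ fun e => hz ?_
    · rw [pow_two, ← QuotientGroup.mk_mul, ← QuotientGroup.mk_one]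
      congr 1; exact Subtype.ext hz2
    · exact (QuotientGroup.eq_one_iff (⟨z, h.le h.zR⟩ : L)).1 e
  · rintro _ ⟨y, hy, rfl⟩
    rw [QuotientGroup.mk'_apply, ← QuotientGroup.mk_mul, ← QuotientGroup.mk_mul]
    congr 1; exact Subtype.ext (h.hy.zc _ (h.lt.le hy))
  · intro g hg
    obtain ⟨⟨g, hgL⟩, rfl⟩ := QuotientGroup.mk_surjective g
    rw [← QuotientGroup.mk_mul, ← QuotientGroup.mk_mul, QuotientGroup.eq] at hg
    have hg' : (g * z)⁻¹ * (z * g) ∈ pCoreOf 2 L := hg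
    have hzz : Subgroup.zpowers z ≤ R := Subgroup.zpowers_le.2 h.zR
    have hRz : R ≤ NN(Subgroup.zpowers z) := (CC_le_NN _).trans' (by
      rw [CC_zpowers]; intro y hy
      exact Subgroup.mem_centralizer_singleton_iff.2 (h.hy.zc y (h.lt.le hy)))
    refine mem_bar _ (h.NLB hz (B := pCoreOf 2 L ⊔ Subgroup.zpowers z) (sup_le h.OR hzz)
      (Subgroup.mem_sup_right (Subgroup.mem_zpowers z))
      (le_NN_sup (h.le.trans (le_NN_pCoreOf L)) hRz) ⟨hgL, ?_⟩)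
    change g ∈ NN(pCoreOf 2 L ⊔ Subgroup.zpowers z)
    refine inv_mem_iff.1 (mem_NN_of_cj_le ?_)
    rw [cj_sup, cj_eq_of_mem_NN (le_NN_pCoreOf L (inv_mem hgL)), cj_zpowers]
    refine sup_le le_sup_left (Subgroup.zpowers_le.2 ?_)
    have : g⁻¹ * z * g⁻¹⁻¹ = z * ((g * z)⁻¹ * (z * g)) := by group
    rw [this]
    exact mul_mem (Subgroup.mem_sup_right (Subgroup.mem_zpowers z)) (Subgroup.mem_sup_left hg')

theorem four_le (hz : z ∈ pCoreOf 2 L) : 4 ≤ Nat.card (pCoreOf 2 L) := by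
  have h1 : Subgroup.zpowers z < pCoreOf 2 L := by
    refine lt_of_le_of_ne (Subgroup.zpowers_le.2 hz) fun e => h.not_two ?_
    have h2 := le_CC_of_card_two (U := Subgroup.zpowers z) (by rw [Nat.card_zpowers, h.hy.oz])
      (e ▸ le_NN_pCoreOf L)
    exact h.hy.syl.isPGroup.to_le fun x hx =>
      h.hy.cz x (mem_CC.1 (h2 hx) z (Subgroup.mem_zpowers z)).symm
  have := two_mul_card_le h1
  rw [Nat.card_zpowers, h.hy.oz] at this
  exact this

theorem card_bar_le : Nat.card (bar L (pCoreOf 2 L) R) * Nat.card (pCoreOf 2 L) = Nat.card R := by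
  rw [card_bar' h.le, mul_comm, card_mul_relIndex h.OR]

end Loc

theorem Hy.card_aux (n : ℕ) : ∀ (G : Type u) [Group G] [Finite G] (Y : Subgroup G) (z : G),
    Nat.card Y = n → Hy Y z → 16 ≤ n := by
  induction n using Nat.strong_induction_on with
  | _ n ih =>
  intro G _ _ Y z hn h
  obtain ⟨R, L, hl⟩ := h.exists_loc
  have h1 := two_mul_card_le hl.lt
  by_cases hz : z ∈ pCoreOf 2 L
  · have h2 := hl.four_le hz
    have h3 := two_mul_card_le hl.O_lt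
    omega
  · have h2 := hl.card_bar_le
    have h3 : 0 < Nat.card (pCoreOf 2 L) := Nat.card_pos
    have h4 : Nat.card (bar L (pCoreOf 2 L) R) ≤ Nat.card R := h2 ▸ Nat.le_mul_of_pos_right _ h3
    have h5 : 0 < Nat.card R := Nat.card_pos
    have := ih _ (by omega) _ _ _ rfl (hl.quot hz)
    omega

theorem Hy.card_ge {Y : Subgroup G} {z : G} (h : Hy Y z) : 16 ≤ Nat.card Y :=
  Hy.card_aux _ G Y z rfl h

end Hy

end H5Ch
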