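import Mathlib

/-! Enumeration of the embeddings of an integral lattice with short basis vectors. -/

set_option autoImplicit false
set_option linter.unusedSectionVars false

namespace H25.En

open Multiset

/-- the extensions of a list of encoded columns by a new coordinate -/
def ch : List ℤ → ℕ → ℤ → ℤ → List (List ℤ)
  | [], rem, acc, s => if acc = 0 ∧ s.natAbs ≤ rem ∧ (rem + s) % 2 = 0 then
      [List.replicate ((rem + s) / 2).toNat 1 ++ List.replicate ((rem - s) / 2).toNat (-1)] else []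
  | c :: L, rem, acc, s => (ch L rem acc s).map (16 * c :: ·) ++ match rem with
    | 0 => []
    | r + 1 => (ch L r (acc - c) (s - 1)).map ((16 * c + 1) :: ·) ++ (ch L r (acc + c) (s + 1)).map ((16 * c - 1) :: ·)

variable {ι : Type*} {F f : ι → ℤ}

theorem tri (hf : ∀ i, f i = 0 ∨ f i = 1 ∨ f i = -1) (U : Multiset ι) : ∃ a b k : ℕ,
    U.map f = replicate a 1 + replicate b (-1) + replicate k 0 ∧ (U.map fun i => f i * f i).sum = a + b := by
  induction U using Multiset.induction_on with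
  | empty => exact ⟨0, 0, 0, by simp⟩
  | cons i U ih =>
    obtain ⟨a, b, k, h, h'⟩ := ih
    rcases hf i with e | e | e
    · exact ⟨a, b, k + 1, by simp [h, h', e]⟩
    · exact ⟨a + 1, b, k, by simp [h, e], by simp [h', e]; ring⟩
    · exact ⟨a, b + 1, k, by simp [h, e], by simp [h', e]; ring⟩

theorem ch_sound (hf : ∀ i, f i = 0 ∨ f i = 1 ∨ f i = -1) (L : List ℤ) : ∀ (U : Multiset ι) (k rem : ℕ) (acc s : ℤ),
    U.map F = (L : Multiset ℤ) + replicate k 0 → (U.map fun i => f i * f i).sum = rem → (U.map fun i => F i * f i).sum = acc →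
    (U.map f).sum = s → ∃ L' ∈ ch L rem acc s, ∃ k', U.map (fun i => 16 * F i + f i) = (L' : Multiset ℤ) + replicate k' 0 := by
  classical
  induction L with
  | nil =>
    intro U k rem acc s h1 h2 h3 h4
    have z : ∀ i ∈ U, F i = 0 := fun i hi => eq_of_mem_replicate (n := k) (by
      have := h1 ▸ mem_map_of_mem F hi; rwa [coe_nil, zero_add] at this)
    obtain ⟨a, b, k, h, h'⟩ := tri hf U
    rw [map_congr rfl (g := fun _ => 0) fun i hi => by rw [z i hi, zero_mul]] at h3
    have h5 : s = a - b := by rw [← h4, h]; simp [sub_eq_add_neg]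
    refine ⟨_, by rw [ch, if_pos ⟨by simpa using h3.symm, by omega, by omega⟩]; exact List.mem_singleton_self _, k, ?_⟩
    rw [map_congr rfl (g := f) fun i hi => by rw [z i hi, mul_zero, zero_add], h,
      show ((rem + s) / 2).toNat = a by omega, show ((rem - s) / 2).toNat = b by omega]
    rfl
  | cons c L ih =>
    intro U k rem acc s h1 h2 h3 h4
    obtain ⟨i, hi, rfl, h5⟩ := (map_eq_cons F U ((L : Multiset ℤ) + replicate k 0) c).2 (h1.trans (cons_add c L _))
    obtain ⟨U, rfl⟩ := exists_cons_of_mem hi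
    rw [erase_cons_head] at h5
    simp only [map_cons, sum_cons] at h2 h3 h4 ⊢
    have nn : 0 ≤ (U.map fun i => f i * f i).sum := sum_nonneg fun _ h => let ⟨_, _, e⟩ := mem_map.1 h; e ▸ mul_self_nonneg _
    rcases hf i with e | e | e <;> rw [e] at h2 h3 h4 ⊢
    · obtain ⟨L', h6, k', h7⟩ := ih U k rem acc s h5 (by omega) (by omega) (by omega)
      exact ⟨_, List.mem_append_left _ (List.mem_map_of_mem h6), k', by rw [h7, add_zero, ← cons_add]; rfl⟩
    · obtain ⟨r, rfl⟩ : ∃ r, rem = r + 1 := ⟨rem - 1, by omega⟩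
      obtain ⟨L', h6, k', h7⟩ := ih U k r (acc - F i) (s - 1) h5 (by omega) (by omega) (by omega)
      exact ⟨_, List.mem_append_right _ (List.mem_append_left _ (List.mem_map_of_mem h6)), k', by
        rw [h7, ← cons_add]; rfl⟩
    · obtain ⟨r, rfl⟩ : ∃ r, rem = r + 1 := ⟨rem - 1, by omega⟩
      obtain ⟨L', h6, k', h7⟩ := ih U k r (acc + F i) (s + 1) h5 (by omega) (by omega) (by omega)
      exact ⟨_, List.mem_append_right _ (List.mem_append_right _ (List.mem_map_of_mem h6)), k', by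
        rw [h7, ← cons_add]; rfl⟩

/-- the encoding of the first `k` coordinates -/
def enc {n : ℕ} (v : Fin n → ℤ) : ℕ → ℤ
  | 0 => 0
  | k + 1 => 16 * enc v k + if h : k < n then v ⟨k, h⟩ else 0

/-- decoding -/
def dig (c : ℤ) : ℕ → ℤ
  | 0 => (c + 1) % 16 - 1
  | k + 1 => dig ((c + 1) / 16) k

theorem dig_enc {n : ℕ} {v : Fin n → ℤ} (hv : ∀ j, v j = 0 ∨ v j = 1 ∨ v j = -1) (j : Fin n) (k : ℕ) :
    dig (enc v (j + k + 1)) k = v j := by
  induction k with
  | zero => rw [dig, add_zero, enc, dif_pos j.2]; have := hv j; simp only [Fin.eta]; omega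
  | succ k ih =>
    rw [dig, enc, ← ih, ← add_assoc]
    congr 1
    split_ifs with h
    · have := hv ⟨_, h⟩; omega
    · omega

theorem run {n : ℕ} (U : Finset ι) (x : Fin n → ι → ℤ) (G : Fin n → Fin n → ℤ) (S : Fin n → ℤ)
    (hx : ∀ j i, x j i = 0 ∨ x j i = 1 ∨ x j i = -1) (hG : ∀ j k, ∑ i ∈ U, x j i * x k i = G j k)
    (hS : ∀ j, ∑ i ∈ U, x j i = S j) (Ls : ℕ → List (List ℤ)) (h0 : [] ∈ Ls 0)
    (hc : ∀ k : Fin n, ∀ L ∈ Ls k, ∀ L' ∈ ch L (G k k).toNat (enc (G · k) k) (S k),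
      L'.insertionSort (· ≤ ·) ∈ Ls (k + 1)) :
    ∃ L ∈ Ls n, (∀ Φ : ℤ → ℤ, Φ 0 = 0 → ∑ i ∈ U, Φ (enc (x · i) n) = (L.map Φ).sum) ∧
      ∀ i ∈ U, enc (x · i) n = 0 ∨ enc (x · i) n ∈ L := by
  have e : ∀ j k, ∑ i ∈ U, enc (x · i) k * x j i = enc (G · j) k := fun j k => by
    induction k with
    | zero => simp [enc]
    | succ k ih =>
      simp only [enc, add_mul, Finset.sum_add_distrib, mul_assoc, ← Finset.mul_sum, ih]
      split_ifs <;> simp [hG]
  have : ∀ k ≤ n, ∃ L ∈ Ls k, ∃ m, U.val.map (fun i => enc (x · i) k) = (L : Multiset ℤ) + replicate m 0 := fun k hk => by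
    induction k with
    | zero => exact ⟨[], h0, U.card, by simp [enc]⟩
    | succ k ih =>
      obtain ⟨L, h1, m, h2⟩ := ih (by omega)
      obtain ⟨L', h3, m', h4⟩ := ch_sound (hx ⟨k, hk⟩) L U.val m (G ⟨k, hk⟩ ⟨k, hk⟩).toNat _ _ h2 (by
        rw [Int.toNat_of_nonneg (hG _ _ ▸ Finset.sum_nonneg fun i _ => mul_self_nonneg _), ← hG]; rfl) (e _ k) (hS _)
      refine ⟨_, hc ⟨k, hk⟩ L h1 L' h3, m', ?_⟩
      rw [coe_eq_coe.2 (List.perm_insertionSort _ L'), ← h4]
      simp only [enc, dif_pos (show k < n from hk)]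
  obtain ⟨L, h1, m, h2⟩ := this n le_rfl
  refine ⟨L, h1, fun Φ h => ?_, fun i hi => ?_⟩
  · have := congrArg (fun s => (map Φ s).sum) h2
    simpa [h] using this
  · have := h2 ▸ mem_map_of_mem (fun i => enc (x · i) n) (show i ∈ U.val from hi)
    rcases mem_add.1 this with h | h
    exacts [.inr h, .inl (eq_of_mem_replicate h)]

end H25.En
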