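import Cfsg.Agent.H26.SzModel

/-! Twisted natural modules of the Suzuki groups: extensions and trilinear maps (matrix level). -/

set_option autoImplicit false
set_option linter.unusedSectionVars false
set_option linter.unusedSimpArgs false

namespace H5Mt
open Matrix H26 H26.Sz

variable {L : Type*} [Group L] {F : Type*} [Field F] [Fintype F] {m : ℕ} (M : SzModel L F m)

/-- twisted natural representation -/
def T (τ : F →+* F) : L →* Matrix (Fin 4) (Fin 4) F := τ.mapMatrix.toMonoidHom.comp M.ρ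

theorem T_apply (τ : F →+* F) (g : L) (i j : Fin 4) : T M τ g i j = τ (M.ρ g i j) := rfl

theorem T_u (τ : F →+* F) (a b : F) : T M τ (M.u a b) =
    !![1, τ a, τ b + τ a * τ (M.σ a), τ (ff M.σ a b); 0, 1, τ (M.σ a), τ b; 0, 0, 1, τ a; 0, 0, 0, 1] := by
  ext i j; rw [T_apply, M.ρ_u]; fin_cases i <;> fin_cases j <;> simp [uM]

theorem T_z (τ : F →+* F) (b : F) : T M τ (M.u 0 b) =
    !![1, 0, τ b, τ (M.σ b); 0, 1, 0, τ b; 0, 0, 1, 0; 0, 0, 0, 1] := by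
  rw [T_u]; simp [ff]

/-- the matrix of `u 1 0` -/
def XM (F : Type*) [Field F] : Matrix (Fin 4) (Fin 4) F := !![1, 1, 1, 1; 0, 1, 1, 0; 0, 0, 1, 1; 0, 0, 0, 1]

theorem T_x (τ : F →+* F) : T M τ (M.u 1 0) = XM F := by
  rw [T_u]; simp [ff, XM]

theorem T_h (τ : F →+* F) (s : Fˣ) : T M τ (M.h s) =
    !![τ s * τ (M.σ s), 0, 0, 0; 0, τ s, 0, 0; 0, 0, (τ s)⁻¹, 0; 0, 0, 0, (τ s * τ (M.σ s))⁻¹] := by
  ext i j; rw [T_apply, M.ρ_h]; fin_cases i <;> fin_cases j <;> simp [hM]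

theorem T_w (τ : F →+* F) : T M τ M.w = wM F := by
  ext i j; rw [T_apply, M.ρ_w]; fin_cases i <;> fin_cases j <;> simp [wM]

theorem cen_X {A : Matrix (Fin 4) (Fin 4) F} (h : A * XM F = XM F * A) :
    A = !![A 0 0, A 0 1, A 0 1 + A 1 3, A 0 3; 0, A 0 0, A 0 1, A 1 3; 0, 0, A 0 0, A 0 1; 0, 0, 0, A 0 0] := by
  have e := fun i j => congrFun (congrFun h i) j
  have := e 0 0; have := e 0 1; have := e 0 2; have := e 0 3
  have := e 1 0; have := e 1 1; have := e 1 2; have := e 1 3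
  have := e 2 0; have := e 2 1; have := e 2 2; have := e 2 3
  have := e 3 1; have := e 3 2; have := e 3 3
  simp only [XM, Matrix.mul_apply, Fin.sum_univ_four, of_apply, cons_val', cons_val_zero, cons_val_one,
    cons_val, cons_val_fin_one] at *
  ext i j; fin_cases i <;> fin_cases j <;> simp <;> grind

section scal
variable {ρ τ : F →+* F} {c : F → F}

theorem lemA1 [CharP F 2] (hne : ρ ≠ τ) (h0 : ∀ b, ρ b * c b + c b * τ b = 0)
    (h1 : ∀ b b', ρ b * c b' + c b * τ b' = ρ b' * c b + c b' * τ b) (b : F) : c b = 0 := by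
  obtain ⟨d, hd⟩ := DFunLike.ne_iff.1 hne
  have := h0 d
  have := h1 b d
  have : c d = 0 := by grind
  grind

include M in
theorem lemA2 (ha : ∀ b b', c (b + b') = c b + c b') (h1 : c 1 = 0)
    (h : ∀ ζ : F, ζ ≠ 0 → ∃ k, ∀ b, c (ζ * b) = c b + τ b * k) (b : F) : c b = 0 := by
  have := M.charP
  obtain ⟨y, y0, y1⟩ := M.exists_ne
  obtain ⟨k, hk⟩ := h y y0
  obtain ⟨k', hk'⟩ := h (y + 1) (by grind)
  have e1 := hk 1
  have e2 := hk' 1
  have e3 := hk b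
  have e4 := hk' b
  rw [add_mul, ha, one_mul] at e2 e4
  rw [map_one] at e1 e2
  grind

theorem lemA3 (ha : ∀ b b', c (b + b') = c b + c b') (h1 : c 1 = 0)
    (h : ∀ ζ : F, ζ ≠ 0 → ∃ k, ∀ b, τ ζ * c (ζ * b) = τ (M.σ ζ) * c b + τ b * k) (b : F) : c b = 0 := by
  have := M.charP
  have key : ∀ ζ b : F, ζ ≠ 0 → b ≠ 0 →
      c b * τ b * (τ (M.σ ζ) + τ ζ ^ 2) = c ζ * τ ζ * (τ (M.σ b) + τ b ^ 2) := by
    intro ζ b h1' h2
    obtain ⟨k, hk⟩ := h ζ h1'
    obtain ⟨k', hk'⟩ := h b h2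
    have e1 := hk 1
    have e2 := hk' 1
    have e3 := hk b
    have e4 := hk' ζ
    rw [mul_comm b ζ] at e4
    rw [map_one, mul_one, h1] at e1 e2
    grind
  obtain ⟨y, hy⟩ := not_forall.1 (not_sigma_eq_sq M.hσ M.exists_ne)
  have y0 : y ≠ 0 := by rintro rfl; simp at hy
  have y1 : y + 1 ≠ 0 := by
    intro e
    have : y = 1 := by grind
    subst this; simp at hy
  have hD : τ (M.σ y) + τ y ^ 2 ≠ 0 := by
    rw [← map_pow, ← map_add, map_ne_zero]; grind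
  have e1 := key y (y + 1) y0 y1
  rw [ha, h1] at e1
  simp only [map_add, map_one] at e1
  have cy : c y = 0 := by grind
  by_cases b0 : b = 0
  · have := ha 0 0
    rw [add_zero] at this
    rw [b0]; grind
  have e2 := key y b y0 b0
  have : τ b ≠ 0 := (map_ne_zero τ).2 b0
  grind

end scal

theorem x_sq : M.u 1 0 * M.u 1 0 = M.u 0 1 := by rw [M.u_sq]; simp

/-- cocycles vanishing on `Sz(2)` -/
structure Coc (ρ τ : F →+* F) (C : L → Matrix (Fin 4) (Fin 4) F) : Prop where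
  mul : ∀ g g', C (g * g') = T M ρ g * C g' + C g * T M τ g'
  x : C (M.u 1 0) = 0
  w : C M.w = 0

variable {M} {ρ τ : F →+* F} {C : L → Matrix (Fin 4) (Fin 4) F}

theorem Coc.one (h : Coc M ρ τ C) : C 1 = 0 := by
  have := h.mul 1 1
  simpa using this

theorem Coc.z1 (h : Coc M ρ τ C) : C (M.u 0 1) = 0 := by
  rw [← x_sq, h.mul, h.x]; simp

theorem Coc.zf (h : Coc M ρ τ C) (b : F) : ∃ c0 c1 c2 c3 : F, C (M.u 0 b) =
    !![c0, c1, c1 + c2, c3; 0, c0, c1, c2; 0, 0, c0, c1; 0, 0, 0, c0] := by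
  have e := congrArg C (M.u_zero_comm b 1 0)
  rw [h.mul, h.mul, h.x, T_x, T_x, mul_zero, zero_mul, zero_add, add_zero] at e
  exact ⟨_, _, _, _, cen_X e⟩

theorem Coc.hz (h : Coc M τ τ C) (s : Fˣ) (b : F) :
    T M τ (M.h s) * C (M.u 0 b) + C (M.h s) * T M τ (M.u 0 b) =
      T M τ (M.u 0 (s ^ 2 * M.σ s * b)) * C (M.h s) + C (M.u 0 (s ^ 2 * M.σ s * b)) * T M τ (M.h s) := by
  rw [← h.mul, ← h.mul, M.h_mul_u, mul_zero]

theorem exists_h {ζ : F} (h : ζ ≠ 0) : ∃ s : Fˣ, (s : F) ^ 2 * M.σ s = ζ := by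
  obtain ⟨s, rfl⟩ := M.sq_mul_σ_surj ζ
  exact ⟨Units.mk0 s (by rintro rfl; simp at h), rfl⟩

theorem Coc.zz (h : Coc M ρ τ C) (b : F) : C (M.u 0 b) 0 0 = 0 ∧ C (M.u 0 b) 0 1 = 0 := by
  have := M.charP
  choose c0 c1 c2 c3 hc using h.zf
  have e : ∀ b b', c0 (b + b') = c0 b + c0 b' ∧ c1 (b + b') = c1 b + c1 b' ∧
      c2 (b + b') = c2 b' + ρ b * c0 b' + c0 b * τ b' + c2 b ∧
      c3 (b + b') = c3 b' + ρ b * c1 b' + ρ (M.σ b) * c0 b' + c0 b * τ (M.σ b') + c1 b * τ b' + c2 b * 0 + c3 b := by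
    intro b b'
    have e := h.mul (M.u 0 b) (M.u 0 b')
    rw [M.u_zero_mul, hc, hc, hc, T_z, T_z] at e
    have e := fun i j => congrFun (congrFun e i) j
    have := e 0 0; have := e 0 1; have := e 1 3; have := e 0 3
    simp [Matrix.mul_apply, Fin.sum_univ_four] at *
    grind
  have z0 : c2 0 = 0 ∧ c3 0 = 0 := by
    have e := hc 0
    rw [M.u_zero, h.one] at e
    exact ⟨(congrFun (congrFun e 1) 3).symm, (congrFun (congrFun e 0) 3).symm⟩
  have z1 : c0 1 = 0 ∧ c1 1 = 0 := by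
    have e := hc 1
    rw [h.z1] at e
    exact ⟨(congrFun (congrFun e 0) 0).symm, (congrFun (congrFun e 0) 1).symm⟩
  rw [hc]
  show c0 b = 0 ∧ c1 b = 0
  by_cases hne : ρ = τ
  · subst hne
    have k0 : ∀ b, c0 b = 0 := lemA2 M (τ := ρ) (fun b b' => (e b b').1) z1.1 fun ζ hζ => by
      obtain ⟨s, rfl⟩ := exists_h (M := M) hζ
      refine ⟨ρ (s ^ 2 * M.σ s) * C (M.h s) 3 1 / ρ s, fun b => ?_⟩
      have e := congrFun (congrFun (h.hz s b) 1) 1
      rw [hc, hc, T_z, T_z, T_h] at e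
      have : ρ s ≠ 0 := (map_ne_zero ρ).2 s.ne_zero
      simp [Matrix.mul_apply, Fin.sum_univ_four, Matrix.vecMul, dotProduct] at e ⊢
      grind
    refine ⟨k0 b, lemA3 M (τ := ρ) (fun b b' => (e b b').2.1) z1.2 (fun ζ hζ => ?_) b⟩
    obtain ⟨s, rfl⟩ := exists_h (M := M) hζ
    refine ⟨ρ (s ^ 2 * M.σ s) ^ 2 * C (M.h s) 2 1 / ρ s, fun b => ?_⟩
    have e := congrFun (congrFun (h.hz s b) 0) 1
    have e' := congrFun (congrFun (h.hz s 1) 1) 1
    rw [hc, hc, T_z, T_z, T_h] at e e'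
    have : ρ s ≠ 0 := (map_ne_zero ρ).2 s.ne_zero
    have : ρ (M.σ s) ≠ 0 := (map_ne_zero ρ).2 (M.σ_ne_zero s.ne_zero)
    simp [Matrix.mul_apply, Fin.sum_univ_four, Matrix.vecMul, dotProduct, k0, M.hσ] at e e' ⊢
    grind
  · have k0 : ∀ b, c0 b = 0 := lemA1 hne (fun b => by
      have := (e b b).2.2.1
      rw [CharTwo.add_self_eq_zero] at this
      grind) fun b b' => by
      have e1 := (e b b').2.2.1
      have e2 := (e b' b).2.2.1
      rw [add_comm] at e2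
      grind
    refine ⟨k0 b, lemA1 hne (fun b => ?_) (fun b b' => ?_) b⟩
    · have := (e b b).2.2.2
      rw [CharTwo.add_self_eq_zero, k0] at this
      grind
    · have e1 := (e b b').2.2.2
      have e2 := (e b' b).2.2.2
      rw [add_comm] at e2
      rw [k0, k0] at e1 e2
      grind

theorem Coc.zf' (h : Coc M ρ τ C) (b : F) : ∃ c2 c3 : F, C (M.u 0 b) =
    !![0, 0, c2, c3; 0, 0, 0, c2; 0, 0, 0, 0; 0, 0, 0, 0] := by
  obtain ⟨c0, c1, c2, c3, e⟩ := h.zf b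
  have := h.zz b
  rw [e] at this
  obtain ⟨rfl, rfl⟩ : c0 = 0 ∧ c1 = 0 := this
  exact ⟨c2, c3, by rw [e, zero_add]⟩


theorem Coc.yf (h : Coc M ρ τ C) (a : F) : ∃ p d1 d2 d3 d4 d5 d6 : F, C (M.u a 0) =
    !![p, d1, d2, d3; 0, p, d4, d5; 0, 0, p, d6; 0, 0, 0, p] := by
  have := M.charP
  have e1 := congrArg C (M.u_zero_comm 1 a 0)
  rw [h.mul, h.mul, h.z1, T_z, T_z, mul_zero, zero_mul, zero_add, add_zero] at e1
  have e2 : M.u a 0 * M.u 1 0 = M.u 1 0 * (M.u a 0 * M.u 0 (a + M.σ a)) := by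
    rw [M.u_mul, M.u_mul, M.u_mul]; congr 1 <;> simp <;> grind
  replace e2 := congrArg C e2
  obtain ⟨c2, c3, e3⟩ := h.zf' (a + M.σ a)
  rw [h.mul, h.mul, h.mul, h.x, e3, T_x, T_x, T_z, T_u] at e2
  refine ⟨C (M.u a 0) 0 0, C (M.u a 0) 0 1, C (M.u a 0) 0 2, C (M.u a 0) 0 3, C (M.u a 0) 1 2,
    C (M.u a 0) 1 3, C (M.u a 0) 2 3, ?_⟩
  generalize C (M.u a 0) = D at *
  have e1 := fun i j => congrFun (congrFun e1 i) j
  have e2 := fun i j => congrFun (congrFun e2 i) j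
  have := e1 0 0; have := e1 0 1; have := e1 0 2; have := e1 1 0; have := e1 1 1; have := e1 1 2
  have := e1 1 3; have := e2 0 0; have := e2 0 1
  clear e1 e2 e3
  simp [Matrix.mul_apply, Fin.sum_univ_four, Matrix.vecMul, dotProduct, XM] at *
  ext i j; fin_cases i <;> fin_cases j <;> simp <;> grind

theorem Coc.hlow (h : Coc M τ τ C) (s : Fˣ) : C (M.h s) 2 0 = 0 ∧ C (M.h s) 3 0 = 0 := by
  obtain ⟨c2, c3, e1⟩ := h.zf' 1
  obtain ⟨c2', c3', e2⟩ := h.zf' (s ^ 2 * M.σ s * 1)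
  have e := h.hz s 1
  rw [e1, e2, T_z, T_z, T_h] at e
  have e0 := congrFun (congrFun e 0) 0
  have e1 := congrFun (congrFun e 1) 0
  have : τ s ≠ 0 := (map_ne_zero τ).2 s.ne_zero
  have : τ (M.σ s) ≠ 0 := (map_ne_zero τ).2 (M.σ_ne_zero s.ne_zero)
  simp [Matrix.mul_apply, Fin.sum_univ_four, Matrix.vecMul, dotProduct] at e0 e1
  grind

theorem Coc.y0 (h : Coc M ρ τ C) (a : F) : C (M.u a 0) 0 0 = 0 := by
  have := M.charP
  choose p d1 d2 d3 d4 d5 d6 hc using h.yf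
  have e : ∀ a a', p (a + a') = p a + p a' ∧ d1 (a + a') = d1 a' + ρ a * p a' + p a * τ a' + d1 a := by
    intro a a'
    have e : M.u a 0 * M.u a' 0 = M.u (a + a') 0 * M.u 0 (M.σ a * a') := by
      rw [M.u_mul, M.u_mul]; simp
    replace e := congrArg C e
    obtain ⟨c2, c3, e3⟩ := h.zf' (M.σ a * a')
    rw [h.mul, h.mul, hc, hc, hc, e3, T_z, T_u, T_u, T_u] at e
    have e0 := congrFun (congrFun e 0) 0
    have e1 := congrFun (congrFun e 0) 1
    simp [Matrix.mul_apply, Fin.sum_univ_four, Matrix.vecMul, dotProduct] at e0 e1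
    exact ⟨by linear_combination -e0, by linear_combination -e1⟩
  have z0 : d1 0 = 0 := by
    have e := hc 0
    rw [M.u_zero, h.one] at e
    exact (congrFun (congrFun e 0) 1).symm
  have z1 : p 1 = 0 := by
    have e := hc 1
    rw [h.x] at e
    exact (congrFun (congrFun e 0) 0).symm
  rw [hc]
  show p a = 0
  by_cases hne : ρ = τ
  · subst hne
    refine lemA2 M (τ := ρ) (fun b b' => (e b b').1) z1 (fun ζ hζ => ?_) a
    obtain ⟨s, rfl⟩ := M.σ_bij.2 ζ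
    lift s to Fˣ using isUnit_iff_ne_zero.2 (by rintro rfl; simp at hζ)
    refine ⟨C (M.h s) 1 0 / ρ s, fun b => ?_⟩
    have e := congrArg C (M.h_mul_u s b 0)
    rw [h.mul, h.mul, mul_zero, hc, hc, T_u, T_u, T_h] at e
    have e := congrFun (congrFun e 0) 0
    have := h.hlow s
    have : ρ s ≠ 0 := (map_ne_zero ρ).2 s.ne_zero
    have : ρ (M.σ s) ≠ 0 := (map_ne_zero ρ).2 (M.σ_ne_zero s.ne_zero)
    simp [Matrix.mul_apply, Fin.sum_univ_four, Matrix.vecMul, dotProduct] at e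
    grind
  · refine lemA1 hne (fun b => ?_) (fun b b' => ?_) a
    · have := (e b b).2
      rw [CharTwo.add_self_eq_zero] at this
      grind
    · have e1 := (e b b').2
      have e2 := (e b' b).2
      rw [add_comm] at e2
      grind

theorem Coc.uf (h : Coc M ρ τ C) (a b : F) :
    (∀ i, C (M.u a b) i 0 = 0) ∧ ∀ j, C (M.u a b) 3 j = 0 := by
  obtain ⟨p, d1, d2, d3, d4, d5, d6, e1⟩ := h.yf a
  have e2 := h.y0 a
  rw [e1] at e2
  obtain rfl : p = 0 := e2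
  obtain ⟨c2, c3, e3⟩ := h.zf' b
  have e : M.u a b = M.u a 0 * M.u 0 b := by rw [M.u_mul]; simp
  rw [e, h.mul, e1, e3, T_z, T_u]
  constructor <;> intro i <;> fin_cases i <;> simp [Matrix.mul_apply, Fin.sum_univ_four]

theorem Coc.hf (h : Coc M ρ τ C) (s : Fˣ) :
    C (M.h s) 1 0 = 0 ∧ C (M.h s) 2 0 = 0 ∧ C (M.h s) 3 0 = 0 := by
  have e := congrArg C (M.u_mul_h s 1 0)
  rw [h.mul, h.mul, h.x, T_x, T_u, T_h, T_h] at e
  have e0 := congrFun (congrFun e 0) 0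
  have e1 := congrFun (congrFun e 1) 0
  have e2 := congrFun (congrFun e 2) 0
  simp [Matrix.mul_apply, Fin.sum_univ_four, Matrix.vecMul, dotProduct, XM, (h.uf _ _).1] at e0 e1 e2
  grind

theorem Coc.fin (h : Coc M ρ τ C) (h0 : ∀ s, C (M.h s) 0 0 = 0) (g : L) : C g = 0 := by
  have hh : ∀ s i, C (M.h s) i 0 = 0 := fun s i => by
    have := h.hf s
    fin_cases i
    exacts [h0 s, this.1, this.2.1, this.2.2]
  have hu : ∀ a b g, C (M.u a b * g) 3 0 = C g 3 0 := fun a b g => by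
    rw [h.mul, T_u]
    simp [Matrix.mul_apply, Fin.sum_univ_four, Matrix.vecMul, dotProduct, (h.uf _ _).2]
  have k : ∀ g, C g 3 0 = 0 := fun g => by
    rcases M.bruhat g with ⟨a, b, s, rfl⟩ | ⟨a, b, s, c, d, rfl⟩
    · rw [hu, hh]
    · have : M.h s * M.w = M.w * M.h s⁻¹ := by rw [M.w_mul_h, inv_inv]
      rw [mul_assoc, mul_assoc, hu, ← mul_assoc, this, h.mul, h.mul, h.w, T_u, T_w]
      generalize s⁻¹ = t
      simp [Matrix.mul_apply, Fin.sum_univ_four, Matrix.vecMul, dotProduct, (h.uf _ _).1, hh]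
  have rw' : ∀ g, C (g * M.w) = C g * wM F := fun g => by rw [h.mul, h.w, T_w, mul_zero, zero_add]
  have rx : ∀ g, C (g * M.u 1 0) = C g * XM F := fun g => by rw [h.mul, h.x, T_x, mul_zero, zero_add]
  have lw : ∀ g, C (M.w * g) = wM F * C g := fun g => by rw [h.mul, h.w, T_w, zero_mul, add_zero]
  have lx : ∀ g, C (M.u 1 0 * g) = XM F * C g := fun g => by rw [h.mul, h.x, T_x, zero_mul, add_zero]
  have k3 : ∀ g j, C g 3 j = 0 := fun g j => by
    have e0 := k g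
    have e1 := k (g * M.w)
    have e2 := k (g * M.u 1 0 * M.w)
    have e3 := k (g * M.u 1 0 * M.u 1 0 * M.w)
    simp [rw', rx, wM, XM, Matrix.mul_apply, Fin.sum_univ_four] at e1 e2 e3
    fin_cases j <;> simp <;> grind
  ext i j
  have e0 := k3 g j
  have e1 := k3 (M.w * g) j
  have e2 := k3 (M.w * (M.u 1 0 * (M.w * g))) j
  have e3 := k3 (M.w * (M.u 1 0 * (M.u 1 0 * (M.w * g)))) j
  have := M.charP
  simp [lw, lx, wM, XM, Matrix.mul_apply, Fin.sum_univ_four, Matrix.vecMul, dotProduct] at e1 e2 e3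
  fin_cases i <;> simp <;> grind

theorem Coc.cob (h : Coc M ρ τ C) : ∃ k : F, ∀ g, C g = k • (T M ρ g + T M τ g) := by
  have := M.charP
  have hk : ∀ s t : Fˣ, C (M.h (s * t)) 0 0 =
      ρ s * ρ (M.σ s) * C (M.h t) 0 0 + C (M.h s) 0 0 * (τ t * τ (M.σ t)) := fun s t => by
    rw [map_mul, h.mul, T_h, T_h]
    simp [Matrix.mul_apply, Fin.sum_univ_four, Matrix.vecMul, dotProduct]
  obtain ⟨k, hk⟩ : ∃ k, ∀ s : Fˣ, C (M.h s) 0 0 = k * (ρ s * ρ (M.σ s) + τ s * τ (M.σ s)) := by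
    by_cases hne : ρ = τ
    · subst hne
      refine ⟨0, fun s => ?_⟩
      obtain ⟨t, ht⟩ := FiniteField.isSquare_of_char_two (ringChar.eq F 2) (s : F)
      lift t to Fˣ using isUnit_iff_ne_zero.2 (by rintro rfl; simp at ht)
      obtain rfl : s = t * t := Units.ext ht
      rw [hk]; grind
    · obtain ⟨d, hd⟩ := DFunLike.ne_iff.1 hne
      obtain ⟨s, rfl⟩ := M.σ_mul_surj d
      lift s to Fˣ using isUnit_iff_ne_zero.2 (by rintro rfl; simp at hd)
      refine ⟨C (M.h s) 0 0 / (ρ s * ρ (M.σ s) + τ s * τ (M.σ s)), fun t => ?_⟩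
      have e1 := hk s t
      have e2 := hk t s
      rw [mul_comm t s] at e2
      simp only [map_mul] at hd
      grind
  have two : ∀ A : Matrix (Fin 4) (Fin 4) F, A + A = 0 := fun A => by
    ext i j; exact CharTwo.add_self_eq_zero _
  have h' : Coc M ρ τ fun g => C g + k • (T M ρ g + T M τ g) := ⟨fun g g' => by
    simp only [h.mul, map_mul, mul_add, add_mul, smul_add, Matrix.mul_smul, Matrix.smul_mul]
    have := two (k • (T M ρ g * T M τ g'))
    linear_combination (norm := abel_nf) -this, by rw [h.x, T_x, T_x, two]; simp,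
    by rw [h.w, T_w, T_w, two]; simp⟩
  refine ⟨k, fun g => ?_⟩
  have := h'.fin (fun s => by
    rw [T_h, T_h]
    simp [hk]; grind) g
  rw [← add_zero (C g), ← two (k • (T M ρ g + T M τ g)), ← add_assoc, this, zero_add]

theorem tri0 {τ₁ τ₂ : F →+* F} {A : Matrix (Fin 4) (Fin 4) F}
    (hu : ∀ a b, A * T M τ₂ (M.u a b) = T M ρ (M.u a b) * A)
    (hh : ∀ s : Fˣ, (τ₁ s * τ₁ (M.σ s)) • (A * T M τ₂ (M.h s)) = T M ρ (M.h s) * A) :
    ∃ c2 c3 : F, A = !![0, 0, c2, c3; 0, 0, 0, c2; 0, 0, 0, 0; 0, 0, 0, 0] := by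
  have := M.charP
  have e := hu 1 0
  rw [T_x, T_x] at e
  obtain ⟨c0, c1, c2, c3, rfl⟩ : ∃ c0 c1 c2 c3 : F,
    A = !![c0, c1, c1 + c2, c3; 0, c0, c1, c2; 0, 0, c0, c1; 0, 0, 0, c0] := ⟨_, _, _, _, cen_X e⟩
  have e : ∀ a, c0 * τ₂ a = ρ a * c0 ∧ c0 * (τ₂ a * τ₂ (M.σ a)) + c1 * τ₂ (M.σ a) =
      ρ a * c1 + ρ a * ρ (M.σ a) * c0 ∧ c1 * τ₂ a = ρ (M.σ a) * c1 := fun a => by
    have e := hu a 0
    rw [T_u, T_u] at e
    have e := fun i j => congrFun (congrFun e i) j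
    have := e 0 1; have := e 0 2; have := e 1 3
    clear e
    simp [Matrix.mul_apply, Fin.sum_univ_four] at *
    grind
  obtain ⟨y, y0, y1⟩ := M.exists_ne
  obtain rfl : c0 = 0 := by
    by_contra h0
    obtain ⟨s, rfl⟩ := M.σ_mul_surj y
    lift s to Fˣ using isUnit_iff_ne_zero.2 (by rintro rfl; simp at y0)
    have e1 := congrFun (congrFun (hh s) 0) 0
    rw [T_h, T_h] at e1
    simp [Matrix.mul_apply, Fin.sum_univ_four] at e1
    have e2 := (e s).1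
    have e3 := (e (M.σ s)).1
    have : ρ s ≠ 0 := (map_ne_zero ρ).2 s.ne_zero
    have : ρ (M.σ s) ≠ 0 := (map_ne_zero ρ).2 (M.σ_ne_zero s.ne_zero)
    refine y1 (τ₁.injective ?_)
    rw [map_mul, map_one]
    grind
  obtain rfl : c1 = 0 := by
    by_contra h1
    have e1 := (e y).2.2
    have e2 := (e (M.σ y)).2.1
    rw [M.hσ] at e2
    have : τ₂ (y ^ 2) = τ₂ y := by grind
    have := τ₂.injective this
    grind
  exact ⟨c2, c3, by rw [zero_add]⟩

end H5Mt
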