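import Cfsg.Agent.H5.Mt1
import Cfsg.Agent.H26.SzBasic

/-! Modules for Suzuki groups on which an element of order five acts without fixed points. -/

set_option autoImplicit false
set_option linter.unusedSectionVars false
set_option linter.unusedSimpArgs false

namespace H5Mt
open Matrix H26 H26.Sz

variable {L : Type*} [Group L] {F : Type*} [Field F] [Fintype F] {m : ℕ} (M : SzModel L F m)

theorem wxw : M.w * M.u 1 0 * M.w = M.u 1 0 * M.u 1 0 * M.w * M.u 1 0 := by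
  have := M.charP
  refine M.inj ?_
  simp only [map_mul, M.ρ_u, M.ρ_w]
  ext i j; fin_cases i <;> fin_cases j <;> simp [uM, wM, ff, Matrix.mul_apply, Fin.sum_univ_four] <;> grind

theorem x4 : M.u 1 0 * M.u 1 0 * M.u 1 0 * M.u 1 0 = 1 := by
  rw [mul_assoc, x_sq, M.u_zero_sq]

/-- the element of order five -/
noncomputable def a5 : L := M.u 1 0 * M.u 1 0 * M.w

section gen
variable {R : Type*} [CommRing R] {E : Type*} [AddCommGroup E] [Module R E] (φ : Representation R L E)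

/-- `1 + a + a² + a³ + a⁴ = 0` -/
def P5 : Prop := ∀ y, y + φ (a5 M) y + φ (a5 M) (φ (a5 M) y) + φ (a5 M) (φ (a5 M) (φ (a5 M) y)) +
  φ (a5 M) (φ (a5 M) (φ (a5 M) (φ (a5 M) y))) = 0

theorem rmul (g g' : L) (y : E) : φ (g * g') y = φ g (φ g' y) := by rw [map_mul]; rfl

theorem r_ww (y : E) : φ M.w (φ M.w y) = y := by rw [← rmul, M.w_mul_w, map_one]; rfl

theorem r_x4 (y : E) : φ (M.u 1 0) (φ (M.u 1 0) (φ (M.u 1 0) (φ (M.u 1 0) y))) = y := by
  rw [← rmul, ← rmul, ← rmul, x4, map_one]; rfl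

theorem r_wxw (y : E) : φ M.w (φ (M.u 1 0) (φ M.w y)) =
    φ (M.u 1 0) (φ (M.u 1 0) (φ M.w (φ (M.u 1 0) y))) := by
  simp only [← rmul, ← mul_assoc, wxw]

variable {M φ}

theorem fx1 {y : E} (h : φ (M.u 1 0) y = y) :
    φ M.w (φ (M.u 1 0) (φ M.w y)) = φ (M.u 1 0) (φ (M.u 1 0) (φ M.w y)) := by rw [r_wxw, h]

theorem fx2 {y : E} (h : φ (M.u 1 0) y = y) :
    φ M.w (φ (M.u 1 0) (φ (M.u 1 0) (φ M.w y))) = φ (M.u 1 0) (φ M.w y) := by rw [← fx1 h, r_ww]

theorem fx3 {y : E} (h : φ (M.u 1 0) y = y) :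
    φ M.w (φ (M.u 1 0) (φ (M.u 1 0) (φ (M.u 1 0) (φ M.w y)))) =
      φ (M.u 1 0) (φ (M.u 1 0) (φ (M.u 1 0) (φ M.w y))) := by
  conv_lhs => rw [← fx1 h, r_wxw, fx2 h]

theorem P5.fx (h5 : P5 M φ) {y : E} (h : φ (M.u 1 0) y = y) :
    y + φ M.w y + φ (M.u 1 0) (φ M.w y) + φ (M.u 1 0) (φ (M.u 1 0) (φ M.w y)) +
      φ (M.u 1 0) (φ (M.u 1 0) (φ (M.u 1 0) (φ M.w y))) = 0 := by
  have := h5 y
  simp only [a5, rmul, fx2 h, fx3 h, fx1 h, r_x4] at this
  rw [← this]; abel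

theorem P5.sub (h5 : P5 M φ) (W : Submodule R E) (hW : ∀ g, W ≤ W.comap (φ g)) :
    P5 M (φ.subrepresentation W hW) := fun y => Subtype.ext (h5 y.1)

theorem P5.quot (h5 : P5 M φ) (W : Submodule R E) (hW : ∀ g, W ≤ W.comap (φ g)) :
    P5 M (φ.quotient W hW) := fun y => by
  obtain ⟨y, rfl⟩ := W.mkQ_surjective y
  exact (congrArg W.mkQ (h5 y)).trans (map_zero _)

end gen

variable {E : Type*} [AddCommGroup E] [Module F E] (φ : Representation F L E)

/-- the map from the natural module defined by a vector fixed by `u 1 0` -/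
noncomputable def sm (y : E) : (Fin 4 → F) →ₗ[F] E where
  toFun v := v 0 • y + v 1 • (φ (M.u 1 0) (φ (M.u 1 0) (φ M.w y)) + φ M.w y + y) +
    v 2 • (φ (M.u 1 0) (φ M.w y) + φ M.w y + y) + v 3 • φ M.w y
  map_add' v v' := by simp only [Pi.add_apply]; module
  map_smul' c v := by simp only [Pi.smul_apply, smul_eq_mul, RingHom.id_apply]; module

theorem sm_apply (y : E) (v : Fin 4 → F) : sm M φ y v =
    v 0 • y + v 1 • (φ (M.u 1 0) (φ (M.u 1 0) (φ M.w y)) + φ M.w y + y) +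
    v 2 • (φ (M.u 1 0) (φ M.w y) + φ M.w y + y) + v 3 • φ M.w y := rfl

/-- homomorphisms from twisted natural modules -/
def IsNat (τ : F →+* F) (f : (Fin 4 → F) →ₗ[F] E) : Prop := ∀ g v, f (T M τ g *ᵥ v) = φ g (f v)

variable {M φ}

theorem XM_vec (v : Fin 4 → F) : XM F *ᵥ v = ![v 0 + v 1 + v 2 + v 3, v 1 + v 2, v 2 + v 3, v 3] := by
  ext i; fin_cases i <;> simp [XM, mulVec, dotProduct, Fin.sum_univ_four]

theorem wM_vec (v : Fin 4 → F) : wM F *ᵥ v = ![v 3, v 2, v 1, v 0] := by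
  ext i; fin_cases i <;> simp [wM, mulVec, dotProduct, Fin.sum_univ_four]

theorem sm_x (h5 : P5 M φ) {y : E} (h : φ (M.u 1 0) y = y) (v : Fin 4 → F) :
    sm M φ y (XM F *ᵥ v) = φ (M.u 1 0) (sm M φ y v) := by
  have := M.charP
  have e := h5.fx h
  simp only [sm_apply, XM_vec, map_add, map_smul, h, cons_val_zero, cons_val_one, cons_val]
  linear_combination (norm := (match_scalars <;> grind)) v 1 • e

theorem sm_w {y : E} (h : φ (M.u 1 0) y = y) (v : Fin 4 → F) :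
    sm M φ y (wM F *ᵥ v) = φ M.w (sm M φ y v) := by
  simp only [sm_apply, wM_vec, map_add, map_smul, fx1 h, fx2 h, r_ww, cons_val_zero, cons_val_one, cons_val]
  module

theorem vec_eq (v : Fin 4 → F) [CharP F 2] : v = v 0 • ![1, 0, 0, 0] +
    v 1 • (XM F *ᵥ (XM F *ᵥ (wM F *ᵥ ![1, 0, 0, 0])) + wM F *ᵥ ![1, 0, 0, 0] + ![1, 0, 0, 0]) +
    v 2 • (XM F *ᵥ (wM F *ᵥ ![1, 0, 0, 0]) + wM F *ᵥ ![1, 0, 0, 0] + ![1, 0, 0, 0]) +
    v 3 • wM F *ᵥ ![1, 0, 0, 0] := by
  ext i; fin_cases i <;> simp [XM_vec, wM_vec] <;> grind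

theorem IsNat.sm_eq {τ : F →+* F} {f : (Fin 4 → F) →ₗ[F] E} (h : IsNat M φ τ f) (v : Fin 4 → F) :
    sm M φ (f ![1, 0, 0, 0]) v = f v := by
  have := M.charP
  conv_rhs => rw [vec_eq v]
  simp only [sm_apply, map_add, map_smul, ← h _, T_x, T_w]

theorem vec_zero {τ : F →+* F} {v : Fin 4 → F} (h : ∀ g, (T M τ g *ᵥ v) 3 = 0) : v = 0 := by
  have := M.charP
  have e0 := h 1
  have e1 := h M.w
  have e2 := h (M.w * M.u 1 0)
  have e3 := h (M.w * M.u 1 0 * M.u 1 0)
  simp [map_mul, ← mulVec_mulVec, T_x, T_w, XM_vec, wM_vec] at e0 e1 e2 e3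
  ext i; fin_cases i <;> simp <;> grind

variable [Finite E]

variable (M φ) in
theorem exists_fix [Nontrivial E] : ∃ v : E, v ≠ 0 ∧ ∀ a b, φ (M.u a b) v = v := by
  have := M.charP
  let _ : MulAction M.Q E :=
    { smul := fun g v => φ g v
      one_smul := fun v => by show φ (1 : L) v = v; rw [map_one]; rfl
      mul_smul := fun g g' v => rmul φ _ _ v }
  obtain ⟨y, hy⟩ := exists_ne (0 : E)
  have h2 : 2 ∣ Nat.card E := by
    have : addOrderOf y = 2 := addOrderOf_eq_prime (by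
      rw [← Nat.cast_smul_eq_nsmul F, CharP.cast_eq_zero, zero_smul]) hy
    exact this ▸ addOrderOf_dvd_natCard y
  obtain ⟨v, hv, h0⟩ := M.isPGroup_Q.exists_fixed_point_of_prime_dvd_card_of_fixed_point E h2 (a := 0)
    fun g => map_zero (φ g)
  exact ⟨v, h0.symm, fun a b => hv ⟨_, M.u_mem_Q a b⟩⟩

variable (M φ) in
theorem exists_wt [Nontrivial E] : ∃ (v : E) (j : ℕ), v ≠ 0 ∧ (∀ a b, φ (M.u a b) v = v) ∧
    ∀ s : Fˣ, φ (M.h s) v = (s : F) ^ (j + 1) • v := by
  classical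
  have := M.charP
  obtain ⟨v, v0, hv⟩ := exists_fix M φ
  obtain ⟨j, hj⟩ : ∃ j, ∑ s : Fˣ, ((s⁻¹ : Fˣ) : F) ^ (j + 1) • φ (M.h s) v ≠ 0 := by
    by_contra! hn
    have e := Finset.sum_eq_zero (s := Finset.range (Fintype.card F - 1)) fun j _ => hn j
    rw [Finset.sum_comm, Finset.sum_eq_single 1 (fun s _ hs => ?_) (by simp)] at e
    · simp only [inv_one, Units.val_one, one_pow, map_one, Module.End.one_apply, one_smul,
        Finset.sum_const, Finset.card_range] at e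
      obtain ⟨k, hk⟩ := M.odd_card_sub_one
      rw [hk, add_smul, mul_smul, ← Nat.cast_smul_eq_nsmul F 2, CharP.cast_eq_zero, zero_smul] at e
      exact v0 (by simpa using e)
    · rw [← Finset.sum_smul]
      have h1 : ((s⁻¹ : Fˣ) : F) - 1 ≠ 0 := fun e => hs (inv_eq_one.1 (Units.ext (sub_eq_zero.1 e)))
      have h2 := geom_sum_mul ((s⁻¹ : Fˣ) : F) (Fintype.card F - 1)
      rw [FiniteField.pow_card_sub_one_eq_one _ (Units.ne_zero _), sub_self] at h2
      simp only [pow_succ, ← Finset.sum_mul, (mul_eq_zero.1 h2).resolve_right h1, zero_mul, zero_smul]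
  refine ⟨_, j, hj, fun a b => ?_, fun t => ?_⟩
  · simp only [map_sum, map_smul, ← rmul, M.u_mul_h]
    simp only [rmul, hv]
  · rw [map_sum, Finset.smul_sum]
    refine Fintype.sum_equiv (Equiv.mulLeft t) _ _ fun s => ?_
    simp only [map_smul, ← rmul, ← map_mul, Equiv.coe_mulLeft, smul_smul, ← mul_pow]
    congr 2
    simp [mul_comm]

theorem simple (h5 : P5 M φ) [Nontrivial E]
    (hs : ∀ W : Submodule F E, (∀ g, W ≤ W.comap (φ g)) → W = ⊥ ∨ W = ⊤) :
    ∃ τ f, IsNat M φ τ f ∧ Function.Injective f := by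
  have := M.charP
  obtain ⟨v, j, v0, hu, hh⟩ := exists_wt M φ
  have : Finite (Module.Dual F E) := Finite.of_injective _ DFunLike.coe_injective
  obtain ⟨ψ, ψ0, hψ⟩ := exists_fix M φ.dual
  replace hψ : ∀ a b y, ψ (φ (M.u a b) y) = ψ y := fun a b y => by
    conv_lhs => rw [← hψ a b]
    show ψ (φ _ (φ _ y)) = _
    rw [← rmul, inv_mul_cancel, map_one]; rfl
  have hx := hu 1 0
  have e0 : ψ v = 0 := by
    have := congrArg ψ (h5.fx hx)
    simp only [map_add, hψ, map_zero] at this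
    grind
  have sep : ∀ y, (∀ g, ψ (φ g y) = 0) → y = 0 := fun y hy => by
    rcases hs (⨅ g, LinearMap.ker (ψ ∘ₗ φ g)) (fun g y hy => by
      simp only [Submodule.mem_comap, Submodule.mem_iInf, LinearMap.mem_ker, LinearMap.comp_apply,
        ← rmul] at hy ⊢
      exact fun g' => hy _) with e | e
    · exact e.le (Submodule.mem_iInf _ |>.2 hy)
    · refine absurd (LinearMap.ext fun z => ?_) ψ0
      simpa using (Submodule.mem_iInf _).1 (e.ge (Submodule.mem_top (x := z))) 1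
  have key : ∀ g, ψ (φ g v) = (M.σ (M.ρ g 3 0) / M.ρ g 3 0) ^ (j + 1) * ψ (φ M.w v) := fun g => by
    rcases M.bruhat g with ⟨a, b, s, rfl⟩ | ⟨a, b, s, c, d, rfl⟩
    · rw [rmul, hψ, hh, map_smul, e0, map_mul, M.ρ_u, M.ρ_h]
      simp [uM, hM, Matrix.mul_apply, Fin.sum_univ_four]
    · have e : M.h s * M.w = M.w * M.h s⁻¹ := by rw [M.w_mul_h, inv_inv]
      rw [rmul, hu, mul_assoc, rmul, hψ, e, rmul, hh, map_smul, map_smul, ← e, map_mul, map_mul, map_mul,
        M.ρ_u, M.ρ_u, M.ρ_h, M.ρ_w, smul_eq_mul]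
      have := s.ne_zero
      have := M.σ_ne_zero s.ne_zero
      congr 2
      simp [uM, hM, wM, Matrix.mul_apply, Fin.sum_univ_four, M.hσ]
      field_simp
  have c0 : ψ (φ M.w v) ≠ 0 := fun e => v0 (sep v fun g => by rw [key, e, mul_zero])
  have hadd : ∀ y : F, (M.σ (1 + y) / (1 + y)) ^ (j + 1) = 1 + (M.σ y / y) ^ (j + 1) := fun y => by
    obtain ⟨b, rfl⟩ := M.σ_bij.2 y
    have e := congrArg (fun z => ψ (φ (M.w * M.u 0 b) z)) (h5.fx hx)
    have ent : ∀ k, M.ρ (M.w * M.u 0 b * k) 3 0 =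
        ![1, 0, b, M.σ b] ⬝ᵥ (T M (RingHom.id F) k *ᵥ ![1, 0, 0, 0]) := fun k => by
      simp [M.ρ_u, M.ρ_w, uM, wM, ff, Matrix.mul_apply, Fin.sum_univ_four, mulVec, dotProduct, T_apply]
    have key' := fun k => key (M.w * M.u 0 b * k)
    have k1 := key' 1
    rw [ent, mul_one] at k1
    simp only [map_add, map_zero, ← rmul, key', k1, ent] at e
    simp only [map_mul, ← mulVec_mulVec, T_x, T_w, XM_vec, wM_vec, map_one, one_mulVec] at e
    simp only [dotProduct, Fin.sum_univ_four, cons_val_zero, cons_val_one, cons_val, add_zero, zero_add,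
      mul_one, mul_zero, one_mul, zero_mul, CharTwo.add_self_eq_zero, map_one, div_one, one_pow] at e
    generalize ψ (φ M.w v) = c at e c0
    grind
  let τ : F →+* F :=
    { toFun := fun y => (M.σ y / y) ^ (j + 1)
      map_one' := by simp
      map_mul' := fun y z => by rw [map_mul, mul_div_mul_comm, mul_pow]
      map_zero' := by simp
      map_add' := fun y z => by
        by_cases h0 : y = 0
        · simp [h0]
        rw [show y + z = y * (1 + z / y) by field_simp, map_mul, mul_div_mul_comm, mul_pow, hadd, mul_add,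
          mul_one, ← mul_pow, ← mul_div_mul_comm, ← map_mul, mul_div_cancel₀ _ h0] }
  have k1 : ∀ g, ψ (φ g v) = (T M τ g *ᵥ ![1, 0, 0, 0]) 3 * ψ (φ M.w v) := fun g => by
    rw [key]; simp [mulVec, dotProduct, Fin.sum_univ_four, T_apply, τ]
  have k2 : ∀ g e, ψ (φ g (sm M φ v e)) = (T M τ g *ᵥ e) 3 * ψ (φ M.w v) := fun g e => by
    conv_rhs => rw [vec_eq e]
    have k1' := fun k => k1 (g * k)
    simp only [sm_apply, map_add, map_smul, ← rmul, k1', k1 g]
    simp only [mulVec_add, mulVec_smul,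
      Pi.add_apply, Pi.smul_apply, smul_eq_mul, map_mul, T_x, T_w, ← mulVec_mulVec]
    ring
  refine ⟨τ, sm M φ v, fun g e => sub_eq_zero.1 (sep _ fun g' => ?_), (injective_iff_map_eq_zero _).2
    fun e he => vec_zero (M := M) (τ := τ) fun g => ?_⟩
  · rw [map_sub, map_sub, ← rmul, k2, k2, map_mul, mulVec_mulVec, sub_self]
  · have := k2 g e
    rw [he, map_zero, map_zero] at this
    exact (mul_eq_zero.1 this.symm).resolve_right c0


theorem exists_nat (h5 : P5 M φ) [Nontrivial E] : ∃ τ f, IsNat M φ τ f ∧ Function.Injective f := by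
  have : Finite (Submodule F E) := Finite.of_injective _ SetLike.coe_injective
  obtain ⟨W, ⟨h0, hW⟩, hm⟩ := exists_minimal_of_wellFoundedLT
    (fun W : Submodule F E => W ≠ ⊥ ∧ ∀ g, W ≤ W.comap (φ g)) ⟨⊤, top_ne_bot, fun _ => le_top⟩
  have : Nontrivial W := Submodule.nontrivial_iff_ne_bot.2 h0
  obtain ⟨τ, f, h1, h2⟩ := simple (h5.sub W hW) fun U hU => or_iff_not_imp_left.2 fun U0 => by
    have := hm (y := U.map W.subtype) ⟨fun e => U0 (Submodule.map_injective_of_injective W.subtype_injective (by simpa using e)), fun g => by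
      rintro _ ⟨y, hy, rfl⟩
      exact ⟨_, hU g hy, rfl⟩⟩ (W.map_subtype_le U)
    refine eq_top_iff.2 fun y _ => ?_
    obtain ⟨z, hz, e⟩ := this y.2
    exact (Subtype.ext e : z = y) ▸ hz
  exact ⟨τ, W.subtype ∘ₗ f, fun g v => congrArg Subtype.val (h1 g v), W.subtype_injective.comp h2⟩

omit [Finite E] in
theorem lift_nat (h5 : P5 M φ) {ρ τ : F →+* F} {i : (Fin 4 → F) →ₗ[F] E} (hi : IsNat M φ ρ i)
    (hj : Function.Injective i) (hW : ∀ g, i.range ≤ i.range.comap (φ g))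
    {f : (Fin 4 → F) →ₗ[F] E ⧸ i.range} (hf : IsNat M (φ.quotient _ hW) τ f) :
    ∃ s, IsNat M φ τ s ∧ ∀ v, i.range.mkQ (s v) = f v := by
  have := M.charP
  have hq : ∀ g y, i.range.mkQ (φ g y) = φ.quotient _ hW g (i.range.mkQ y) := fun _ _ => rfl
  obtain ⟨y0, hy⟩ := i.range.mkQ_surjective (f ![0, 0, 0, 1])
  set y := y0 + φ (M.u 1 0) y0 + φ (M.u 1 0) (φ (M.u 1 0) y0) +
    φ (M.u 1 0) (φ (M.u 1 0) (φ (M.u 1 0) y0)) with hy'
  have hx : φ (M.u 1 0) y = y := by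
    simp only [hy', map_add, r_x4]; abel
  have h1 : i.range.mkQ y = f ![1, 0, 0, 0] := by
    simp only [hy', map_add, hq, hy, ← hf _, T_x]
    simp only [← map_add]
    congr 1
    ext k; fin_cases k <;> simp [XM_vec] <;> grind
  have h2 : ∀ v, i.range.mkQ (sm M φ y v) = f v := fun v => by
    rw [← hf.sm_eq, ← h1]
    simp only [sm_apply, map_add, map_smul, hq]
  obtain ⟨r, hr⟩ := i.exists_leftInverse_of_injective (LinearMap.ker_eq_bot.2 hj)
  let C : L → Matrix (Fin 4) (Fin 4) F := fun g =>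
    LinearMap.toMatrix' (r ∘ₗ (φ g ∘ₗ sm M φ y - sm M φ y ∘ₗ Matrix.toLin' (T M τ g)))
  have hC : ∀ g v, i (C g *ᵥ v) = φ g (sm M φ y v) - sm M φ y (T M τ g *ᵥ v) := fun g v => by
    obtain ⟨z, hz⟩ : φ g (sm M φ y v) - sm M φ y (T M τ g *ᵥ v) ∈ i.range := by
      rw [← Submodule.Quotient.mk_eq_zero, ← Submodule.mkQ_apply, map_sub, hq, h2, h2, hf, sub_self]
    rw [LinearMap.toMatrix'_mulVec]
    show i (r (φ g (sm M φ y v) - sm M φ y (T M τ g *ᵥ v))) = _
    rw [← hz, ← LinearMap.comp_apply r, hr]; rfl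
  have ex : ∀ {A B : Matrix (Fin 4) (Fin 4) F}, (∀ v, i (A *ᵥ v) = i (B *ᵥ v)) → A = B := fun h =>
    Matrix.toLin'.injective (LinearMap.ext fun v => hj (h v))
  obtain ⟨k, hk⟩ := Coc.cob (M := M) (ρ := ρ) (τ := τ) (C := C) ⟨fun g g' => ex fun v => by
    simp only [add_mulVec, ← mulVec_mulVec, map_add, hi _, hC, rmul, map_mul, map_sub]
    simp, ex fun v => by rw [hC, T_x, sm_x h5 hx]; simp, ex fun v => by rw [hC, T_w, sm_w hx]; simp⟩
  refine ⟨sm M φ y + k • i, fun g v => ?_, fun v => ?_⟩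
  · have := hC g v
    rw [hk, smul_mulVec, add_mulVec, map_smul, map_add] at this
    simp only [LinearMap.add_apply, LinearMap.smul_apply, map_add, map_smul, ← hi g]
    linear_combination (norm := (match_scalars <;> grind)) this
  · simp only [LinearMap.add_apply, LinearMap.smul_apply, map_add, map_smul, h2]
    rw [Submodule.mkQ_apply, (Submodule.Quotient.mk_eq_zero _).2 (LinearMap.mem_range_self i v), smul_zero,
      add_zero]

omit [Finite E] in
theorem IsNat.inv {ρ : F →+* F} {i : (Fin 4 → F) →ₗ[F] E} (hi : IsNat M φ ρ i) (g : L) :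
    i.range ≤ i.range.comap (φ g) := by
  rintro _ ⟨v, rfl⟩
  exact ⟨_, hi g v⟩

theorem card_quot_lt {i : (Fin 4 → F) →ₗ[F] E} (hj : Function.Injective i) :
    Nat.card (E ⧸ i.range) < Nat.card E := by
  have : Nontrivial i.range := Submodule.nontrivial_iff_ne_bot.2 fun e =>
    one_ne_zero (hj ((e.le (LinearMap.mem_range_self i 1)).trans (map_zero i).symm))
  have h1 : 1 < Nat.card i.range := Finite.one_lt_card
  have h2 := Submodule.card_eq_card_quotient_mul_card i.range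
  have h3 : 0 < Nat.card E := Nat.card_pos
  have h4 : 0 < Nat.card (E ⧸ i.range) := Nat.pos_of_ne_zero fun e => by simp [e] at h2; omega
  nlinarith

instance finQ (W : Submodule F E) : Finite (E ⧸ W) := Finite.of_surjective _ W.mkQ_surjective

universe u in
theorem gen_aux (n : ℕ) : ∀ (E : Type u) [AddCommGroup E] [Module F E] [Finite E]
    (φ : Representation F L E), Nat.card E = n → P5 M φ → ∀ S : Submodule F E,
    (∀ τ f, IsNat M φ τ f → ∀ v, f v ∈ S) → S = ⊤ := by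
  induction n using Nat.strong_induction_on with
  | _ n ih =>
  intro E _ _ _ φ hn h5 S hS
  rcases subsingleton_or_nontrivial E with h | h
  · exact Subsingleton.elim _ _
  obtain ⟨ρ, i, hi, hj⟩ := exists_nat h5
  have := ih _ (hn ▸ card_quot_lt hj) (E ⧸ i.range) (φ.quotient _ hi.inv) rfl (h5.quot _ _)
    (S.map i.range.mkQ) fun τ f hf v => by
      obtain ⟨s, h1, h2⟩ := lift_nat h5 hi hj hi.inv hf
      exact ⟨_, hS τ s h1 v, h2 v⟩
  rw [Submodule.map_mkQ_eq_top] at this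
  refine eq_top_iff.2 (this.ge.trans (sup_le ?_ le_rfl))
  rintro _ ⟨v, rfl⟩
  exact hS ρ i hi v

theorem ext_nat (h5 : P5 M φ) {E' : Type*} [AddCommGroup E'] [Module F E'] {P P' : E →ₗ[F] E'}
    (h : ∀ τ f, IsNat M φ τ f → ∀ v, P (f v) = P' (f v)) : P = P' :=
  LinearMap.eqLocus_eq_top.1 (gen_aux _ E φ rfl h5 _ h)

theorem quad (h5 : P5 M φ) (b c : F) : (φ (M.u 0 b) - 1) * (φ (M.u 0 c) - 1) = 0 :=
  ext_nat h5 fun τ f hf v => by
    simp only [Module.End.mul_apply, LinearMap.sub_apply, Module.End.one_apply, ← hf _, ← map_sub,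
      LinearMap.zero_apply]
    rw [← map_zero f]; congr 1
    ext k; fin_cases k <;> simp [T_z, mulVec, dotProduct, Fin.sum_univ_four, vecHead, vecTail]

omit [Finite E] in
theorem IsNat.mn {τ : F →+* F} {f : (Fin 4 → F) →ₗ[F] E} (hf : IsNat M φ τ f) (a b : F) (v : Fin 4 → F) :
    ((φ (M.u a 0) - 1) * (φ (M.u 0 b) - 1)) (f v) = f ![τ (a * b) * v 3, 0, 0, 0] := by
  have := M.charP
  simp only [Module.End.mul_apply, LinearMap.sub_apply, Module.End.one_apply, ← hf _, ← map_sub]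
  congr 1
  ext k; fin_cases k <;> simp [T_u, ff, mulVec, dotProduct, Fin.sum_univ_four, vecHead, vecTail]
  ring

theorem mn (h5 : P5 M φ) (a b : F) :
    (φ (M.u a 0) - 1) * (φ (M.u 0 b) - 1) = (φ (M.u (a * b) 0) - 1) * (φ (M.u 0 1) - 1) :=
  ext_nat h5 fun τ f hf v => by rw [hf.mn, hf.mn, mul_one]

theorem mn_ne (h5 : P5 M φ) [Nontrivial E] {a b : F}
    (h : (φ (M.u a 0) - 1) * (φ (M.u 0 1) - 1) = (φ (M.u b 0) - 1) * (φ (M.u 0 1) - 1)) : a = b := by
  obtain ⟨τ, f, hf, hj⟩ := exists_nat h5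
  have := LinearMap.congr_fun h (f 1)
  rw [hf.mn, hf.mn] at this
  exact τ.injective (by simpa using congrFun (hj this) 0)

theorem free (h5 : P5 M φ) : (1 : Module.End F E) =
    (φ (M.u 0 1) - 1) * (φ M.w + φ (M.w * M.u 0 1 * M.w)) +
      (φ M.w + φ (M.w * M.u 0 1 * M.w)) * (φ (M.u 0 1) - 1) := by
  have := M.charP
  refine ext_nat h5 fun τ f hf v => ?_
  simp only [map_mul, Module.End.mul_apply, LinearMap.sub_apply, LinearMap.add_apply, Module.End.one_apply,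
    ← hf _, ← map_sub, ← map_add, ← x_sq, T_x, T_w, XM_vec, wM_vec]
  congr 1
  ext k; fin_cases k <;> simp <;> grind

omit [Finite E] in
theorem tri {τ₁ τ₂ ρ : F →+* F} {b : (Fin 4 → F) →ₗ[F] (Fin 4 → F) →ₗ[F] (Fin 4 → F)}
    (h : ∀ g v v', b (T M τ₁ g *ᵥ v) (T M τ₂ g *ᵥ v') = T M ρ g *ᵥ b v v') : b = 0 := by
  have := M.charP
  have key : ∀ {τ₁ τ₂ : F →+* F} {b : (Fin 4 → F) →ₗ[F] (Fin 4 → F) →ₗ[F] (Fin 4 → F)},
      (∀ g v v', b (T M τ₁ g *ᵥ v) (T M τ₂ g *ᵥ v') = T M ρ g *ᵥ b v v') → ∃ c2 c3 : F, ∀ v,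
      b ![1, 0, 0, 0] v = !![0, 0, c2, c3; 0, 0, 0, c2; 0, 0, 0, 0; 0, 0, 0, 0] *ᵥ v := by
    intro τ₁ τ₂ b h
    obtain ⟨c2, c3, e⟩ := tri0 (M := M) (ρ := ρ) (τ₁ := τ₁) (τ₂ := τ₂)
      (A := LinearMap.toMatrix' (b ![1, 0, 0, 0])) (fun a c => Matrix.toLin'.injective (LinearMap.ext
        fun v => by
          simp only [toLin'_apply, ← mulVec_mulVec, LinearMap.toMatrix'_mulVec, ← h]
          congr 2
          ext k; fin_cases k <;> simp [T_u, mulVec, dotProduct, Fin.sum_univ_four]))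
      fun s => Matrix.toLin'.injective (LinearMap.ext fun v => by
        simp only [toLin'_apply, smul_mulVec, ← mulVec_mulVec, LinearMap.toMatrix'_mulVec, ← h]
        rw [← LinearMap.smul_apply, ← map_smul]
        congr 2
        ext k; fin_cases k <;> simp [T_h, mulVec, dotProduct, Fin.sum_univ_four])
    exact ⟨c2, c3, fun v => by rw [← e, LinearMap.toMatrix'_mulVec]⟩
  obtain ⟨c2, c3, e⟩ := key h
  obtain ⟨d2, d3, e'⟩ := key (b := b.flip) fun g v v' => h g v' v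
  have e1 := h M.w ![1, 0, 0, 0] ![0, 0, 0, 1]
  simp only [T_w, wM_vec, cons_val_zero, cons_val_one, cons_val] at e1
  rw [← b.flip_apply, e', e] at e1
  have e2 := congrFun e1 2
  have e3 := congrFun e1 3
  simp [mulVec, dotProduct, Fin.sum_univ_four] at e2 e3
  subst e2 e3
  have k : ∀ g, b (T M τ₁ g *ᵥ ![1, 0, 0, 0]) = 0 := fun g => LinearMap.ext fun v => by
    have : v = T M τ₂ g *ᵥ (T M τ₂ g⁻¹ *ᵥ v) := by rw [mulVec_mulVec, ← map_mul]; simp
    rw [this, h, e]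
    ext k; simp [mulVec, dotProduct, Fin.sum_univ_four]
  refine LinearMap.ext fun v => ?_
  have k0 := k 1
  have k1 := k M.w
  have k2 := k (M.u 1 0 * M.w)
  have k3 := k (M.u 1 0 * (M.u 1 0 * M.w))
  simp only [map_mul, map_one, one_mulVec, ← mulVec_mulVec, T_x, T_w] at k0 k1 k2 k3
  rw [vec_eq v]
  simp only [map_add, map_smul, k0, k1, k2, k3, add_zero, smul_zero, LinearMap.zero_apply]

universe u in
theorem tri_aux (h5 : P5 M φ) (n : ℕ) : ∀ (E' : Type u) [AddCommGroup E'] [Module F E'] [Finite E']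
    (φ' : Representation F L E'), Nat.card E' = n → P5 M φ' → ∀ b : E →ₗ[F] E →ₗ[F] E',
    (∀ g y z, b (φ g y) (φ g z) = φ' g (b y z)) → b = 0 := by
  induction n using Nat.strong_induction_on with
  | _ n ih =>
  intro E' _ _ _ φ' hn h5' b hb
  rcases subsingleton_or_nontrivial E' with h | h
  · exact Subsingleton.elim _ _
  obtain ⟨ρ, i, hi, hj⟩ := exists_nat h5'
  have e := ih _ (hn ▸ card_quot_lt hj) (E' ⧸ i.range) (φ'.quotient _ hi.inv) rfl (h5'.quot _ _)
    (b.compr₂ i.range.mkQ) fun g y z => congrArg i.range.mkQ (hb g y z)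
  obtain ⟨r, hr⟩ := i.exists_leftInverse_of_injective (LinearMap.ker_eq_bot.2 hj)
  have hb' : ∀ y z, i (r (b y z)) = b y z := fun y z => by
    obtain ⟨v, hv⟩ := (Submodule.Quotient.mk_eq_zero _).1 (LinearMap.congr_fun₂ e y z)
    rw [← hv, ← LinearMap.comp_apply r, hr]; rfl
  refine ext_nat h5 fun τ₁ f₁ h₁ v₁ => ext_nat h5 fun τ₂ f₂ h₂ v₂ => ?_
  have := tri (M := M) (τ₁ := τ₁) (τ₂ := τ₂) (ρ := ρ) (b := (b.compl₁₂ f₁ f₂).compr₂ r) fun g v v' =>
    hj (by
      simp only [LinearMap.compr₂_apply, LinearMap.compl₁₂_apply, hi g, hb']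
      rw [h₁, h₂, hb])
  rw [← hb']
  exact (congrArg i (LinearMap.congr_fun₂ this v₁ v₂)).trans (map_zero i)

end H5Mt
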