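import Cfsg.Agent.H5.Mt2

/-! Abelian `2`-groups acted on by a Suzuki group with an element of order five fixed-point-free. -/

set_option autoImplicit false
set_option linter.unusedSectionVars false
set_option linter.unusedSimpArgs false

namespace H5Mt
open Matrix H26 H26.Sz TensorProduct

variable {L : Type*} [Group L] {F : Type*} [Field F] [Fintype F] {m : ℕ} {M : SzModel L F m}
  {N : Type*} [AddCommGroup N] {φ : Representation ℤ L N}

variable (F φ) in
/-- extension of scalars -/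
noncomputable def bc : Representation F L (F ⊗[ℤ] N) :=
  (Module.End.baseChangeHom ℤ F N).toMonoidHom.comp φ

theorem bc_eq (g : L) : bc F φ g = Module.End.baseChangeHom ℤ F N (φ g) := rfl

theorem bc_tmul (g : L) (c : F) (n : N) : bc F φ g (c ⊗ₜ n) = c ⊗ₜ φ g n := rfl

theorem P5.bc (h : P5 M φ) : P5 M (bc F φ) := fun y => by
  induction y using TensorProduct.induction_on with
  | zero => simp
  | tmul c n => simp only [bc_tmul, ← tmul_add, h n, tmul_zero]
  | add y z hy hz =>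
    simp only [map_add]
    linear_combination (norm := abel) hy + hz

theorem one_tmul [CharP F 2] (h2 : ∀ n : N, n + n = 0) {n : N} (h : (1 : F) ⊗ₜ[ℤ] n = 0) : n = 0 := by
  let _ : Module (ZMod 2) N := AddCommGroup.zmodModule fun n => by rw [two_smul, h2]
  let _ : Algebra (ZMod 2) F := ZMod.algebra F 2
  obtain ⟨l, hl⟩ := Module.Projective.exists_dual_eq_one (ZMod 2) (one_ne_zero (α := F))
  let b : F →ₗ[ℤ] N →ₗ[ℤ] N := LinearMap.mk₂ ℤ (fun c n => l c • n) (fun _ _ _ => by simp [add_smul])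
    (fun k c n => by rw [map_zsmul, smul_assoc]) (fun _ _ _ => smul_add ..) fun k c n => smul_comm ..
  have := congrArg (TensorProduct.lift b) h
  simpa [b, hl] using this

theorem bc_inj [CharP F 2] (h2 : ∀ n : N, n + n = 0) :
    Function.Injective (Module.End.baseChangeHom ℤ F N) := (injective_iff_map_eq_zero _).2 fun f hf =>
  LinearMap.ext fun n => one_tmul (F := F) h2 (LinearMap.congr_fun hf (1 ⊗ₜ n))

variable [Finite N]

instance finT : Finite (F ⊗[ℤ] N) := Module.finite_of_finite F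

section el
variable (h5 : P5 M φ) (h2 : ∀ n : N, n + n = 0)
include h5 h2

theorem zquad (b c : F) (y : N) : (φ (M.u 0 b) - 1) ((φ (M.u 0 c) - 1) y) = 0 := by
  have := M.charP
  refine LinearMap.congr_fun (bc_inj (F := F) h2 (a₁ := (φ (M.u 0 b) - 1) * (φ (M.u 0 c) - 1)) (a₂ := 0) ?_) y
  simpa only [map_mul, map_sub, map_one, map_zero, bc_eq] using quad h5.bc b c

theorem zmn (a b : F) (y : N) : (φ (M.u a 0) - 1) ((φ (M.u 0 b) - 1) y) =
    (φ (M.u (a * b) 0) - 1) ((φ (M.u 0 1) - 1) y) := by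
  have := M.charP
  refine LinearMap.congr_fun (bc_inj (F := F) h2 (a₁ := (φ (M.u a 0) - 1) * (φ (M.u 0 b) - 1))
    (a₂ := (φ (M.u (a * b) 0) - 1) * (φ (M.u 0 1) - 1)) ?_) y
  simpa only [map_mul, map_sub, map_one, map_zero, bc_eq] using mn h5.bc a b

theorem zfree {y : N} (h : (φ (M.u 0 1) - 1) y = 0) : ∃ z, y = (φ (M.u 0 1) - 1) z := by
  have := M.charP
  have := LinearMap.congr_fun (bc_inj (F := F) h2 (a₁ := 1)
    (a₂ := (φ (M.u 0 1) - 1) * (φ M.w + φ (M.w * M.u 0 1 * M.w)) +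
      (φ M.w + φ (M.w * M.u 0 1 * M.w)) * (φ (M.u 0 1) - 1)) (by
    simpa only [_root_.map_mul (Module.End.baseChangeHom ℤ F N), map_sub, map_one, map_add, bc_eq]
      using free h5.bc)) y
  rw [LinearMap.add_apply, Module.End.mul_apply, Module.End.mul_apply, h, map_zero, add_zero] at this
  exact ⟨_, this⟩

theorem zmn_ne [Nontrivial N] {a b : F} (h : ∀ y, (φ (M.u a 0) - 1) ((φ (M.u 0 1) - 1) y) =
    (φ (M.u b 0) - 1) ((φ (M.u 0 1) - 1) y)) : a = b := by
  have := M.charP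
  obtain ⟨n, hn⟩ := exists_ne (0 : N)
  have : Nontrivial (F ⊗[ℤ] N) := ⟨1 ⊗ₜ n, 0, fun e => hn (one_tmul h2 e)⟩
  refine mn_ne h5.bc ?_
  have := congrArg (Module.End.baseChangeHom ℤ F N) (LinearMap.ext h :
    (φ (M.u a 0) - 1) * (φ (M.u 0 1) - 1) = (φ (M.u b 0) - 1) * (φ (M.u 0 1) - 1))
  simpa only [map_mul, map_sub, map_one, bc_eq] using this

theorem ztri {V : Type*} [AddCommGroup V] [Finite V] {ψ : Representation ℤ L V} (h : P5 M ψ)
    (b : V →ₗ[ℤ] V →ₗ[ℤ] N) (hb : ∀ g y z, b (ψ g y) (ψ g z) = φ g (b y z)) (y z : V) : b y z = 0 := by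
  have := M.charP
  have e := tri_aux h.bc _ _ (bc F φ) rfl h5.bc (LinearMap.BilinMap.baseChange F b) fun g y z => by
    induction y using TensorProduct.induction_on with
    | zero => simp
    | add y y' hy hy' => simp only [map_add, LinearMap.add_apply, hy, hy']
    | tmul c y =>
    induction z using TensorProduct.induction_on with
    | zero => simp
    | add y y' hy hy' => simp only [map_add, hy, hy']
    | tmul d z => simp only [bc_tmul, LinearMap.BilinMap.baseChange_tmul, hb]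
  have := LinearMap.congr_fun₂ e (1 ⊗ₜ y) (1 ⊗ₜ z)
  rw [LinearMap.BilinMap.baseChange_tmul, one_mul] at this
  exact one_tmul h2 this

end el

theorem exp_two (h5 : P5 M φ) (h4 : ∀ y : N, y + y + (y + y) = 0) (y : N) : y + y = 0 := by
  have := M.charP
  let W : Submodule ℤ N := LinearMap.range (LinearMap.id + LinearMap.id : N →ₗ[ℤ] N)
  have mW : ∀ y, y + y ∈ W := fun y => ⟨y, rfl⟩
  have hW : ∀ g, W ≤ W.comap (φ g) := by
    rintro g _ ⟨y, rfl⟩
    exact ⟨φ g y, (map_add (φ g) y y).symm⟩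
  have W2 : ∀ r : W, r + r = 0 := by
    rintro ⟨_, y, rfl⟩
    exact Subtype.ext (h4 y)
  have V2 : ∀ r : N ⧸ W, r + r = 0 := fun r => by
    obtain ⟨r, rfl⟩ := W.mkQ_surjective r
    exact (Submodule.Quotient.mk_eq_zero _).2 (mW r)
  have : Finite (N ⧸ W) := Finite.of_surjective _ W.mkQ_surjective
  by_contra h0
  have : Nontrivial W := ⟨⟨_, mW y⟩, 0, fun e => h0 (congrArg Subtype.val e)⟩
  obtain ⟨b, b0, b1⟩ := M.exists_ne
  suffices b = b * b by grind
  refine zmn_ne (h5.sub W hW) W2 ?_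
  rintro ⟨_, y, rfl⟩
  rw [← zmn (h5.sub W hW) W2, ← one_mul b, ← zmn (h5.sub W hW) W2, one_mul]
  refine Subtype.ext ?_
  show (φ (M.u 1 0) - 1) ((φ (M.u 0 b) - 1) (y + y)) = (φ (M.u b 0) - 1) ((φ (M.u 0 b) - 1) (y + y))
  have hq : ∀ g y, W.mkQ ((φ g - 1) y) = (φ.quotient W hW g - 1) (W.mkQ y) := fun _ _ => rfl
  have q1 : ∀ b c r, r ∈ W → (φ (M.u 0 b) - 1) ((φ (M.u 0 c) - 1) r) = 0 := fun b c r hr =>
    congrArg Subtype.val (zquad (h5.sub W hW) W2 b c ⟨r, hr⟩)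
  have q2 : ∀ r, r ∈ W → (φ (M.u 1 0) - 1) ((φ (M.u 0 b) - 1) r) =
      (φ (M.u b 0) - 1) ((φ (M.u 0 1) - 1) r) := fun r hr => by
    have := zmn (h5.sub W hW) W2 1 b ⟨r, hr⟩
    rw [one_mul] at this
    exact congrArg Subtype.val this
  have cm : ∀ b a c y, (φ (M.u 0 b) - 1) ((φ (M.u a c) - 1) y) = (φ (M.u a c) - 1) ((φ (M.u 0 b) - 1) y) :=
    fun b a c y => by
      simp only [LinearMap.sub_apply, Module.End.one_apply, map_sub, ← rmul, M.u_zero_comm]; abel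
  have sq : ∀ b y, (φ (M.u 0 b) - 1) ((φ (M.u 0 b) - 1) y) = -(φ (M.u 0 b) - 1) (y + y) := fun b y => by
    simp only [LinearMap.sub_apply, Module.End.one_apply, map_sub, map_add, ← rmul, M.u_zero_sq, map_one]
    abel
  have fr : ∀ z, W.mkQ ((φ (M.u 0 1) - 1) z) = 0 → ∃ z', ∃ r ∈ W, z = (φ (M.u 0 1) - 1) z' + r :=
    fun z hz => by
      obtain ⟨z', e⟩ := zfree (h5.quot W hW) V2 ((hq _ _).symm.trans hz)
      obtain ⟨z', rfl⟩ := W.mkQ_surjective z'
      exact ⟨z', _, (Submodule.Quotient.eq W).1 (e.trans (hq _ _).symm), by abel⟩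
  obtain ⟨y1, r, hr, e1⟩ := fr ((φ (M.u 0 b) - 1) y) (by rw [hq, hq, zquad (h5.quot W hW) V2])
  obtain ⟨y2, r', hr', e2⟩ := fr ((φ (M.u 1 0) - 1) y1 - (φ (M.u b 0) - 1) y) (by
    have e : W.mkQ ((φ (M.u 0 1) - 1) y1) = W.mkQ ((φ (M.u 0 b) - 1) y) := by
      rw [e1, map_add, show W.mkQ r = 0 from (Submodule.Quotient.mk_eq_zero W).2 hr, add_zero]
    rw [map_sub, cm, cm, map_sub, hq, e, hq, hq, hq, zmn (h5.quot W hW) V2, one_mul, sub_self])
  have r2 : r + r = 0 := congrArg Subtype.val (W2 ⟨r, hr⟩)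
  have e3 : (φ (M.u 0 b) - 1) ((φ (M.u 0 1) - 1) ((φ (M.u 1 0) - 1) y1 - (φ (M.u b 0) - 1) y)) = 0 := by
    rw [e2, map_add, map_add, q1 _ _ _ hr', sq, map_neg, q1 _ _ _ (mW _), neg_zero, add_zero]
  have e4 : (φ (M.u 0 b) - 1) ((φ (M.u 0 1) - 1) ((φ (M.u 1 0) - 1) y1)) =
      -(φ (M.u 1 0) - 1) ((φ (M.u 0 b) - 1) (y + y)) - (φ (M.u b 0) - 1) ((φ (M.u 0 1) - 1) r) := by
    rw [cm 1 1, cm b 1, eq_sub_of_add_eq e1.symm, map_sub, sq, map_sub, map_neg, q2 _ hr]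
  have e5 : (φ (M.u 0 1) - 1) (y1 + y1) = (φ (M.u 0 b) - 1) (y + y) := by
    rw [map_add, map_add, e1]
    linear_combination (norm := abel) -r2
  have e6 : (φ (M.u 0 b) - 1) ((φ (M.u 0 1) - 1) ((φ (M.u b 0) - 1) y)) =
      -(φ (M.u b 0) - 1) ((φ (M.u 0 b) - 1) (y + y)) + (φ (M.u b 0) - 1) ((φ (M.u 0 1) - 1) r) := by
    rw [cm 1 b, cm b b, cm b 0 1, e1, map_add, sq, e5, map_add, map_neg]
  have e7 : (φ (M.u b 0) - 1) ((φ (M.u 0 1) - 1) (r + r)) = 0 := by rw [r2, map_zero, map_zero]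
  rw [map_sub, map_sub, e4, e6] at e3
  rw [map_add, map_add] at e7
  linear_combination (norm := abel) -e3 - e7

end H5Mt
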