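import Cfsg.Agent.H5.N9a

/-! Generalities on special classes. -/

set_option autoImplicit false
set_option linter.unusedSectionVars false

namespace H25

open Cfsg H17 H19 Subgroup

section arith
open Finset
variable {ι : Type*} [Fintype ι] [DecidableEq ι] {x d U : ι → ℤ}

theorem sum_of_three (d0 : ∀ i, 0 < d i) (sd : ∑ i, x i * d i = 0) (sU : ∑ i, x i * U i = 0)
    (h : 0 < ∑ i, (U i * U i * x i : ℚ) / d i) (sx : ∑ i, x i * x i = 3) : ∑ i, x i = 1 := by
  have key : ∀ l n : ℤ, (∀ i, 0 < x i → l * U i + n * d i = 0) → l = 0 := fun l n k => by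
    have e : (l : ℚ) ^ 2 * ∑ i, (U i * U i * x i : ℚ) / d i + 2 * n * l * (∑ i, x i * U i : ℤ) +
        n ^ 2 * (∑ i, x i * d i : ℤ) = ∑ i, ((l * U i + n * d i : ℤ) ^ 2 * x i : ℚ) / d i := by
      push_cast
      simp only [mul_sum, ← sum_add_distrib]
      refine sum_congr rfl fun i _ => ?_
      have : (d i : ℚ) ≠ 0 := by exact_mod_cast (d0 i).ne'
      field_simp
      ring
    have k : ∑ i, ((l * U i + n * d i : ℤ) ^ 2 * x i : ℚ) / d i ≤ 0 := sum_nonpos fun i _ => by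
      rcases lt_or_ge 0 (x i) with k' | k'
      · simp [k i k']
      · exact div_nonpos_of_nonpos_of_nonneg (mul_nonpos_of_nonneg_of_nonpos (sq_nonneg _) (by exact_mod_cast k'))
          (by exact_mod_cast (d0 i).le)
    rw [← e, sd, sU] at k
    by_contra k2
    have := mul_pos (sq_pos_of_ne_zero (show (l : ℚ) ≠ 0 by exact_mod_cast k2)) h
    push_cast at k
    linarith
  obtain ⟨p, hp⟩ : ∃ p, 0 < x p := by
    by_contra! k
    exact one_ne_zero (key 1 0 fun i hi => absurd hi (k i).not_gt)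
  obtain ⟨q, hq, qp⟩ : ∃ q, 0 < x q ∧ q ≠ p := by
    by_contra! k
    exact (d0 p).ne' (key (d p) (-U p) fun i hi => by rw [k i hi]; ring)
  obtain ⟨m, hm⟩ : ∃ m, x m < 0 := by
    by_contra! k
    have := single_le_sum (f := fun i => x i * d i) (fun i _ => mul_nonneg (k i) (d0 i).le) (mem_univ p)
    nlinarith [mul_pos hp (d0 p)]
  have k1 := sum_le_sum_of_subset_of_nonneg (f := fun j => x j * x j + x j) (subset_univ {q, p}) fun j _ _ => by
    rcases lt_or_ge (x j) 0 with h | h <;> nlinarith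
  have k2 := single_le_sum (f := fun j => x j * x j - x j) (fun j _ => by
    rcases lt_or_ge 0 (x j) with h | h <;> nlinarith) (mem_univ m)
  rw [sum_pair qp, sum_add_distrib, sx] at k1
  rw [sum_sub_distrib, sx] at k2
  nlinarith

theorem sum_of_two (d0 : ∀ i, 0 < d i) (sd : ∑ i, x i * d i = 0) (sx : ∑ i, x i * x i = 2) : ∑ i, x i = 0 := by
  obtain ⟨i, j, h, h1, h2, -, h3⟩ := exists_pair_sq (by simpa only [pow_two] using sx) sd d0
  rw [sum_supp (A := {i, j}) fun k hk => h3 k (by rintro rfl; simp at hk) (by rintro rfl; simp at hk), sum_pair h, h1, h2]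
  rfl

theorem tri_val (d0 : ∀ i, 0 < d i) (sd : ∑ i, x i * d i = 0) (sx : ∑ i, x i * x i ≤ 4) (i : ι) :
    x i = 0 ∨ x i = 1 ∨ x i = -1 := by
  rcases sx.lt_or_eq with h | h
  · have := single_le_sum (f := fun j => x j * x j) (fun j _ => mul_self_nonneg _) (mem_univ i)
    have : -2 < x i ∧ x i < 2 := by constructor <;> nlinarith
    omega
  · have := no_two d0 sd (by simpa only [pow_two] using h) i
    omega

theorem sum_tab {α β : Type*} [Fintype α] {f : α → β} {L : List (β × ℕ)}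
    (h : univ.val.map f = (L.map fun y => Multiset.replicate y.2 y.1).sum) (F : β → ℂ) :
    ∑ a, F (f a) = (L.map fun y => y.2 * F y.1).sum := by
  have := congrArg (fun s => (Multiset.map F s).sum) h
  simp only [Multiset.map_map] at this
  refine this.trans ?_
  clear h this
  induction L with
  | nil => simp
  | cons y L ih => simp [ih]

variable {r n : ℕ} {y : Fin n → ι → ℤ} {Y : Fin r → ι → ℂ} {K : Fin n → Fin r → ℤ} {D : ℤ}

theorem lin_sum (hy : ∀ j i, (D * y j i : ℂ) = ∑ c, K j c * Y c i) {w : ι → ℂ} {β : Fin r → ℂ}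
    (hw : ∀ c, ∑ i, Y c i * w i = β c) (j : Fin n) : D * ∑ i, y j i * w i = ∑ c, K j c * β c := by
  simp only [mul_sum, ← mul_assoc, hy, sum_mul, ← hw]
  exact sum_comm

theorem lin_gram (hy : ∀ j i, (D * y j i : ℂ) = ∑ c, K j c * Y c i) {z : Fin r → ℤ}
    (hz : ∀ c c', ∑ i, Y c i * Y c' i = if c = c' then (z c : ℂ) else 0) {G : Fin n → Fin n → ℤ} (D0 : D ≠ 0)
    (hG : ∀ j k, ∑ c, K j c * K k c * z c = D * D * G j k) (j k : Fin n) : ∑ i, y j i * y k i = G j k := by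
  have e := lin_sum hy (w := fun i => D * y k i) (β := fun c => K k c * z c) (fun c => by
    simp only [hy, mul_sum]
    rw [sum_comm]
    simp only [mul_left_comm (Y c _), ← mul_sum, hz, mul_ite, mul_zero, sum_ite_eq, mem_univ, if_true]) j
  refine mul_left_cancel₀ (mul_ne_zero D0 D0) (Int.cast_injective (α := ℂ) ?_)
  rw [← hG]
  push_cast
  simp only [mul_assoc, ← e, mul_sum, mul_left_comm (D : ℂ) (y j _)]

end arith

variable {G : Type*} [Group G] [Finite G]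

theorem aff_sum {K V : Type} [Group K] [AddCommGroup V] [DistribMulAction K V] [Fintype V] (φ : Aff K V →* G) (n : ℕ)
    [NeZero n] {k : K} {l : V → ZMod 3} (hl : ∀ u v, l (u + v) = l u + l v) (hk : k ^ n = 1 ∧ ∀ v, l (k • v) = l v)
    {ω η : ℂ} (hω : ω ^ 3 = 1) (hη : η ^ n = 1) {χ : G → ℂ} (hχ : IsCharacter G χ) : ∃ m : ℕ,
      ∑ x : V × ZMod n, χ (φ ⟨x.1, k ^ x.2.val⟩) * (ω ^ (l x.1).val * η ^ x.2.val) = Fintype.card V * n * m := by
  let _ := DistribMulAction.compHom V (powHomN hk.1)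
  have l0 : l 0 = 0 := by simpa using hl 0 0
  have lp : ∀ (i : ℕ) v, l (k ^ i • v) = l v := fun i v => by
    induction i with
    | zero => simp
    | succ i ih => rw [pow_succ', mul_smul, hk.2, ih]
  let ψ : Aff (Multiplicative (ZMod n)) V →* Aff K V := MonoidHom.mk' (fun x => ⟨x.v, powHomN hk.1 x.k⟩)
    fun x y => Aff.ext rfl (map_mul (powHomN hk.1) x.k y.k)
  let μ : Aff (Multiplicative (ZMod n)) V →* ℂ :=
    { toFun := fun x => powHomN hω (.ofAdd (l x.v)) * powHomN hη x.k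
      map_one' := by
        rw [show (1 : Aff (Multiplicative (ZMod n)) V).v = 0 from rfl, l0, ofAdd_zero, map_one, one_mul]
        exact map_one _
      map_mul' := fun x y => by
        rw [show (x * y).v = x.v + k ^ x.k.toAdd.val • y.v from rfl, show (x * y).k = x.k * y.k from rfl, hl, lp,
          ofAdd_add, map_mul, map_mul, mul_mul_mul_comm] }
  obtain ⟨m, hm⟩ := sum_hom_nat (φ.comp ψ) hχ μ
  let e : V × ZMod n ≃ Aff (Multiplicative (ZMod n)) V := ⟨fun x => ⟨x.1, x.2⟩, fun x => ⟨x.1, x.2⟩, fun _ => rfl, fun _ => rfl⟩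
  refine ⟨m, ((Fintype.sum_equiv e _ _ fun _ => rfl).trans hm).trans ?_⟩
  rw [← Fintype.card_congr e, Fintype.card_prod, ZMod.card, Nat.cast_mul]

theorem aff_diff {K V : Type} [Group K] [AddCommGroup V] [DistribMulAction K V] [Fintype V] (φ : Aff K V →* G) (n : ℕ)
    [NeZero n] {k : K} {l : V → ZMod 3} (hl : ∀ u v, l (u + v) = l u + l v) (hk : k ^ n = 1 ∧ ∀ v, l (k • v) = l v)
    {r : ℕ} {rep : Fin r → Aff K V} {cls : Aff K V → Fin r} (hc : ∀ p, ∃ q, q * rep (cls p) * q⁻¹ = p)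
    {L : List ((Fin r × ℕ × ℕ) × ℕ)} (hL : Finset.univ.val.map (fun x : V × ZMod n =>
      (cls ⟨x.1, k ^ x.2.val⟩, (l x.1).val, x.2.val)) = (L.map fun y => Multiset.replicate y.2 y.1).sum)
    {ω η : ℂ} (hω : ω ^ 3 = 1) (hη : η ^ n = 1) (χ : IrrCharacter G) : ∃ m : ℤ, Fintype.card V * n * m =
      (L.map fun y => y.2 * ((χ : G → ℂ) (φ (rep y.1.1)) * ((ω ^ y.1.2.1 - 1) * η ^ y.1.2.2))).sum := by
  obtain ⟨a, ha⟩ := aff_sum φ n hl hk hω hη χ.2.isCharacter
  obtain ⟨b, hb⟩ := aff_sum φ n hl hk (one_pow 3) hη χ.2.isCharacter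
  refine ⟨a - b, ?_⟩
  rw [← sum_tab hL fun y => (χ : G → ℂ) (φ (rep y.1)) * ((ω ^ y.2.1 - 1) * η ^ y.2.2), Int.cast_sub, mul_sub,
    Int.cast_natCast, Int.cast_natCast, ← ha, ← hb, ← Finset.sum_sub_distrib]
  refine Finset.sum_congr rfl fun x _ => ?_
  rw [χ.2.isClassFunction.of_isConj (φ.map_isConj (isConj_iff.2 (hc _)))]
  ring

theorem L3.conj_cent' {V : Type} [AddCommGroup V] {M : Type} [Group M] [Fintype M] [DecidableEq M] {φ : M →* G}
    {ι : V → M} (h : L3 φ ι) {s t : M} {u v : V} (hb : ¬ T3Bad (fun v => φ (ι v)) φ.range v) (hu : u ≠ 0) (hv : v ≠ 0)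
    (hs : s * ι u = ι u * s) (ht : t * ι v = ι v * t) (hc : IsConj (φ s) (φ t)) : ∃ p, p * s * p⁻¹ = t := by
  classical
  obtain ⟨g, hg⟩ := isConj_iff.1 hc
  have pg : ∀ x : centralizer {φ t}, x ^ 3 = 1 → ∃ P : Sylow 3 (centralizer {φ t}), x ∈ P.1 := fun x hx => by
    obtain ⟨P, hP⟩ := (IsPGroup.of_card (G := zpowers x) (p := 3) (n := if x = 1 then 0 else 1) (by
      split_ifs with k
      · simp [k]
      · rw [Nat.card_zpowers, orderOf_eq_prime hx k, pow_one])).exists_le_sylow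
    exact ⟨P, hP (mem_zpowers x)⟩
  obtain ⟨P, hP⟩ := pg ⟨φ (ι v), mem_centralizer_singleton_iff.2 (by rw [← map_mul, ← ht, map_mul])⟩
    (Subtype.ext (h.t3.cube v))
  obtain ⟨Q, hQ⟩ := pg ⟨g * φ (ι u) * g⁻¹, mem_centralizer_singleton_iff.2 (by
    rw [← hg, conj_mul, conj_mul, ← map_mul, ← hs, map_mul])⟩
    (Subtype.ext ((conj_pow ..).trans (by rw [h.t3.cube, mul_one, mul_inv_cancel]; rfl)))
  obtain ⟨x, rfl⟩ := MulAction.exists_smul_eq (centralizer {φ t}) Q P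
  have : Nontrivial (x • Q : Sylow 3 _).1 := ⟨⟨⟨_, hP⟩, 1, fun e => h.t3.ne_one hv
    (congrArg (fun y => y.1.1) e)⟩⟩
  have := (x • Q).isPGroup'.center_nontrivial
  obtain ⟨z, hz⟩ := exists_prime_orderOf_dvd_card' (G := center (x • Q : Sylow 3 _).1) 3
    (((x • Q).isPGroup'.to_subgroup _).nontrivial_iff_card.1 this |>.elim fun n k => k.2 ▸ dvd_pow_self 3 k.1.ne')
  have cz : ∀ y (hy : y ∈ (x • Q : Sylow 3 _).1), Commute y.1 z.1.1.1 := fun y hy =>
    congrArg (fun y : (x • Q : Sylow 3 _).1 => y.1.1) (mem_center_iff.1 z.2 ⟨y, hy⟩)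
  obtain ⟨w, hw⟩ : ∃ w, φ (ι w) = z.1.1.1 := by
    by_contra! k
    exact hb ⟨_, h.t3.cent v hv _ (cz _ hP).symm, congrArg (fun y => y.1.1.1) (hz ▸ pow_orderOf_eq_one z), k,
      (cz _ hP).symm⟩
  obtain ⟨y, hy⟩ := h.t3.cent w (by
    rintro rfl
    rw [h.t3.zero] at hw
    rw [show z = 1 from Subtype.ext (Subtype.ext (Subtype.ext hw.symm)), orderOf_one] at hz
    omega) _ (hw ▸ cz _ ⟨_, hQ, rfl⟩)
  obtain ⟨w', hw'⟩ := h.t3.sc u _ ⟨y, rfl⟩ (isConj_iff.2 ⟨x.1 * g, hy ▸ by simp [mul_assoc]⟩)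
  obtain ⟨p, hp⟩ := h.t3.fus (g := x.1 * g) hu (v := w') (by rw [hw', hy]; simp [mul_assoc])
  refine ⟨p, h.inj ?_⟩
  rw [map_mul, map_mul, map_inv, hp]
  calc _ = x.1 * (g * φ s * g⁻¹) * x.1⁻¹ := by group
    _ = _ := by rw [hg, mem_centralizer_singleton_iff.1 x.2, mul_inv_cancel_right]

end H25
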