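import Cfsg.Agent.H5.N9b

/-! The arithmetic of the special classes of `3³ : S₄`. -/

set_option autoImplicit false
set_option linter.unusedSectionVars false

namespace H25

open Finset En

/-- Gram matrix -/
def G9 : Fin 9 → Fin 9 → ℤ := ![![3, -1, -1, 0, 1, 1, -1, 1, 1],
    ![-1, 3, 1, -1, -1, 1, 1, 1, -1],
    ![-1, 1, 2, 0, 0, 0, 1, 0, 0],
    ![0, -1, 0, 2, 1, 0, 0, 0, 1],
    ![1, -1, 0, 1, 4, 1, 1, 1, 1],
    ![1, 1, 0, 0, 1, 4, 1, 1, 1],
    ![-1, 1, 1, 0, 1, 1, 4, 1, 1],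
    ![1, 1, 0, 0, 1, 1, 1, 4, 1],
    ![1, -1, 0, 1, 1, 1, 1, 1, 4]]

/-- the principal character -/
def t9 : Fin 9 → ℤ := ![0, 0, 0, 0, 1, 1, 1, 0, 0]

/-- the sums of the coefficients -/
def S9 : Fin 9 → ℤ := ![1, 1, 0, 0, 2, 2, 2, 2, 2]

/-- the partial embeddings -/
def L9 : ℕ → List (List ℤ)
  | 0 =>
    [[]]
  | 1 =>
    [[-1, 1, 1]]
  | 2 =>
    [[-16, 1, 1, 15, 16], [-15, -1, 1, 16, 16], [-15, 15, 17]]
  | 3 =>
    [[-256, 1, 16, 16, 239, 256], [-256, 16, 17, 240, 255], [-240, -16, 17, 255, 256], [-239, -16, -1, 16, 256,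
    256], [-240, 1, 239, 272], [-239, -1, 240, 272]]
  | 4 =>
    [[-4096, 1, 16, 255, 256, 3824, 4096], [-4096, 1, 255, 272, 3840, 4080], [-3840, -255, -1, 272, 4080, 4096],
    [-3824, -256, -16, 1, 255, 4096, 4096], [-3824, -255, -16, -1, 256, 4096, 4096]]
  | 5 =>
    [[-65536, 1, 16, 256, 4079, 4096, 61184, 65537], [-65536, 17, 256, 4080, 4095, 61184, 65537], [-65536, -1, 17,
    4080, 4352, 61441, 65280], [-61440, -4079, -16, -1, 4352, 65280, 65537], [-61184, -4096, -256, 1, 16, 4079,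
    65536, 65537], [-61184, -4079, -256, -16, -1, 4096, 65536, 65537]]
  | 6 =>
    [[-1048576, 15, 256, 4096, 65264, 65537, 978944, 1048593], [-1048577, 1, 16, 256, 4096, 65264, 65537, 978944,
    1048592], [-1048576, -1, 272, 4096, 65280, 65521, 978944, 1048593], [-1048576, -16, -1, 272, 65280, 69633,
    983056, 1044481], [-983040, -65264, -256, -16, -1, 69633, 1044481, 1048592], [-978944, -65537, -4096, 1, 16,
    256, 65264, 1048577, 1048592], [-978944, -65264, -4096, -256, -16, -1, 65537, 1048577, 1048592]]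
  | 7 =>
    [[-16777216, 1, 1, 240, 4096, 65536, 1044224, 1048592, 15663103, 16777488], [-16777232, 1, 1, 16, 256, 4096,
    65536, 1044224, 1048592, 15663103, 16777472], [-16777216, -16, 1, 1, 4352, 65536, 1044480, 1048336, 15663103,
    16777488], [-15663103, -1048592, -65536, -1, 1, 16, 256, 4096, 1044224, 16777232, 16777472], [-15663103,
    -1044224, -65536, -4096, -256, -16, -1, 1, 1048592, 16777232, 16777472]]
  | 8 =>
    [[-268435712, -1, 16, 17, 256, 4096, 65536, 1048576, 16707584, 16777473, 250609648, 268439553], [-250609648,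
    -16777473, -1048576, -16, 1, 17, 256, 4096, 65536, 16707584, 268435712, 268439553], [-250609648, -16707584,
    -1048576, -65536, -4096, -256, -16, -1, 17, 16777473, 268435712, 268439553], [-250609648, -16707584, -1048576,
    -65536, -4096, -256, -17, 1, 16, 16777473, 268435712, 268439553]]
  | _ =>
    [[-4009754368, -268439568, -16777216, -256, 1, 16, 273, 4096, 65536, 1048576, 267321343, 4294971393,
    4295032848], [-4009754368, -267321343, -16777216, -1048576, -65536, -4096, -256, -16, -1, 273, 268439568,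
    4294971393, 4295032848], [-4009754368, -267321343, -16777216, -1048576, -65536, -4096, -273, 1, 16, 256,
    268439568, 4294971393, 4295032848]]

theorem L9_step : ∀ k : Fin 9, ∀ L ∈ L9 k, ∀ L' ∈ ch L (G9 k k - t9 k * t9 k).toNat
    (enc (fun j => G9 j k - t9 j * t9 k) k) (S9 k - t9 k), L'.insertionSort (· ≤ ·) ∈ L9 (k + 1) := by
  decide +kernel

/-- values on the elements of order three -/
def v9 (j : Fin 3) (c : ℤ) : ℤ := ∑ k : Fin 9, ![![6, 8, -3, 4, 0, -3, 4, -3, 0], ![0, 2, 0, -2, 3, 0, -2, 0, 3],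
  ![3, -4, 3, 1, -3, 3, 1, 3, -3]] j k * dig c (8 - k)

/-- the exceptional column -/
def i9 (c : ℤ) : ℤ := if v9 0 c = -1 ∧ v9 1 c = -1 ∧ v9 2 c = -1 then 1 else 0

theorem L9_end : ∀ L ∈ L9 9, (∀ c ∈ 0 :: L, v9 1 c * (2 * v9 1 c * v9 2 c - v9 0 c * v9 2 c - v9 1 c * v9 0 c) ≤ 0) ∨
    (∀ c ∈ 0 :: L, 0 ≤ v9 1 c * v9 0 c * (v9 1 c + 2 * v9 2 c) ∨ v9 0 c = -1 ∧ v9 1 c = -1 ∧ v9 2 c = -1) ∧
      (L.map i9).sum ≤ 1 := by
  decide +kernel

theorem n9_arith {ι : Type*} [Fintype ι] [DecidableEq ι] {x : Fin 9 → ι → ℤ} {d A B C : ι → ℤ} {n : ℕ} {o : ι}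
    (d0 : ∀ i, 0 < d i) (od : d o = 1) (hG : ∀ j k, ∑ i, x j i * x k i = G9 j k) (ho : ∀ j, x j o = t9 j)
    (sd : ∀ j, ∑ i, x j i * d i = 0) (hS : ∀ j, ∑ i, x j i = S9 j)
    (hA : ∀ i, A i = ∑ k, ![6, 8, -3, 4, 0, -3, 4, -3, 0] k * x k i)
    (hB : ∀ i, B i = ∑ k, ![0, 2, 0, -2, 3, 0, -2, 0, 3] k * x k i)
    (hC : ∀ i, C i = ∑ k, ![3, -4, 3, 1, -3, 3, 1, 3, -3] k * x k i) (hm : ∀ i, 0 ≤ d i + 6 * A i + 12 * B i + 8 * C i)
    (e1 : n * ∑ i, (B i * B i * A i : ℚ) / d i = 11664) (e2 : n * ∑ i, (A i * B i * C i : ℚ) / d i = 17496)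
    (e3 : n * ∑ i, (B i * B i * C i : ℚ) / d i = 17496) : n < 18144 := by
  have hx := fun j => tri_val d0 (sd j) ((hG j j).le.trans (by revert j; decide))
  obtain ⟨L, h1, h2, h3⟩ := run (univ.erase o) x (fun j k => G9 j k - t9 j * t9 k) (fun j => S9 j - t9 j) hx
    (fun j k => by rw [sum_erase_eq_sub (mem_univ _), hG, ho, ho]) (fun j => by rw [sum_erase_eq_sub (mem_univ _), hS, ho])
    L9 (by decide) L9_step
  have dg : ∀ i (k : Fin 9), dig (enc (x · i) 9) (8 - k) = x k i := fun i k => by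
    have := dig_enc (fun j => hx j i) k (8 - k)
    rwa [show k + (8 - k.1) + 1 = 9 by omega] at this
  have vA : ∀ i, v9 0 (enc (x · i) 9) = A i := fun i => by simp only [v9, dg, hA]; rfl
  have vB : ∀ i, v9 1 (enc (x · i) 9) = B i := fun i => by simp only [v9, dg, hB]; rfl
  have vC : ∀ i, v9 2 (enc (x · i) 9) = C i := fun i => by simp only [v9, dg, hC]; rfl
  have oA : A o = 1 := by simp only [hA, ho]; decide
  have oB : B o = 1 := by simp only [hB, ho]; decide
  have oC : C o = 1 := by simp only [hC, ho]; decide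
  have n0 : (0 : ℚ) ≤ n := Nat.cast_nonneg n
  have dq : ∀ i, (0 : ℚ) < d i := fun i => by exact_mod_cast d0 i
  rcases L9_end L h1 with k | ⟨k, k'⟩
  · have : ∑ i, (2 * ((B i * B i * C i : ℚ) / d i) - (A i * B i * C i : ℚ) / d i - (B i * B i * A i : ℚ) / d i) ≤ 0 :=
      sum_nonpos fun i _ => by
      rw [show (2 * ((B i * B i * C i : ℚ) / d i) - (A i * B i * C i : ℚ) / d i - (B i * B i * A i : ℚ) / d i) =
        (B i * (2 * B i * C i - A i * C i - B i * A i) : ℤ) / d i by push_cast; ring]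
      refine div_nonpos_of_nonpos_of_nonneg (Int.cast_nonpos.2 ?_) (dq i).le
      by_cases e : i = o
      · simp [e, oA, oB, oC]
      · simpa only [vA, vB, vC] using k _ (List.mem_cons.2 (h3 i (by simp [e])))
    rw [sum_sub_distrib, sum_sub_distrib, ← mul_sum] at this
    nlinarith [mul_nonpos_of_nonneg_of_nonpos n0 this]
  have k1 : ∑ i ∈ univ.erase o, (-3 / 26 * (i9 (enc (x · i) 9) : ℤ) : ℚ) ≤
      ∑ i ∈ univ.erase o, ((B i * B i * A i : ℚ) / d i + 2 * ((A i * B i * C i : ℚ) / d i)) := sum_le_sum fun i hi => by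
    rw [show ((B i * B i * A i : ℚ) / d i + 2 * ((A i * B i * C i : ℚ) / d i)) =
      (B i * A i * (B i + 2 * C i) : ℤ) / d i by push_cast; ring]
    have k2 := k _ (List.mem_cons.2 (h3 i hi))
    rw [i9]
    simp only [vA, vB, vC] at k2 ⊢
    split_ifs with e
    · have := hm i
      have : (26 : ℚ) ≤ d i := by exact_mod_cast (show 26 ≤ d i by omega)
      rw [e.1, e.2.1, e.2.2, le_div_iff₀ (dq i)]
      push_cast
      linarith
    · exact (by simp : _ = (0 : ℚ)).le.trans (div_nonneg (Int.cast_nonneg (k2.resolve_right e)) (dq i).le)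
  rw [← mul_sum, ← Int.cast_sum, h2 i9 (by decide), sum_erase_eq_sub (mem_univ _), sum_add_distrib, ← mul_sum, oA, oB,
    oC, od] at k1
  have k2 : ((L.map i9).sum : ℚ) ≤ 1 := by exact_mod_cast k'
  have := mul_le_mul_of_nonneg_left (show (3 - 3 / 26 : ℚ) ≤ ∑ i, (B i * B i * A i : ℚ) / d i +
    2 * ∑ i, (A i * B i * C i : ℚ) / d i by push_cast at k1 k2; linarith) n0
  have : (n : ℚ) < 18144 := by linarith
  exact_mod_cast this

end H25
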