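import Cfsg.Agent.H5.N9c

/-! A group in which `3³ : S₄` controls the strongly closed subgroup `3³`. -/

set_option autoImplicit false
set_option linter.unusedSectionVars false

namespace H25

open Cfsg H17 H19 Subgroup Finset

/-- coefficients of the virtual characters -/
def K9 : Fin 9 → Fin 9 → ℤ := ![![1, 4, 4, -9, 0, 0, 0, 0, -3], ![3, 0, 0, 9, 0, 0, -12, 0, 3],
    ![0, 0, 0, 0, 0, 0, 0, 0, 6], ![0, 0, 0, 0, 0, -12, 12, 0, 0], ![0, 6, 0, 0, 18, 0, 12, 0, 0],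
    ![1, 4, 4, 9, 0, 0, 0, 9, 0], ![3, 0, 0, 9, 0, 12, 12, 0, 3], ![1, 4, 4, 9, 0, 0, 0, -9, 0],
    ![0, 6, 0, 0, -18, 0, 12, 0, 0]]

/-- rational coordinates -/
def T9 (s : ℂ) (β : Fin 9 → ℂ) : Fin 9 → ℂ := ![β 0, β 1, β 2, β 3, β 4, β 5, β 6, β 7 + β 8, s * (β 7 - β 8)]

theorem T9_sum {ι : Type*} [Fintype ι] (s : ℂ) {X : Fin 9 → ι → ℂ} {w : ι → ℂ} {β : Fin 9 → ℂ}
    (h : ∀ c, ∑ i, X c i * w i = β c) (c : Fin 9) : ∑ i, T9 s (X · i) c * w i = T9 s β c := by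
  fin_cases c <;> simp [T9, ← h, add_mul, sub_mul, sum_add_distrib, mul_assoc, ← mul_sum]

theorem lin_inv {ι : Type*} {r n : ℕ} {y : Fin n → ι → ℤ} {Y : Fin r → ι → ℂ} {K : Fin n → Fin r → ℤ} {D : ℤ}
    (hy : ∀ j i, (D * y j i : ℂ) = ∑ c, K j c * Y c i) (D0 : D ≠ 0) {a : Fin n → ℤ} {c₀ : Fin r}
    (h : ∀ c, ∑ k, a k * K k c = if c = c₀ then D else 0) (i : ι) : ((∑ k, a k * y k i : ℤ) : ℂ) = Y c₀ i := by
  refine mul_left_cancel₀ (Int.cast_ne_zero.2 D0) ?_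
  push_cast
  simp only [mul_sum, mul_left_comm (D : ℂ), hy]
  rw [sum_comm]
  simp only [← mul_assoc, ← sum_mul, ← Int.cast_mul, ← Int.cast_sum, h]
  simp

theorem c648_iff' {x y : M648} : (∃ p, p * x * p⁻¹ = y) ↔ c648 x = c648 y := by
  have cj : ∀ y, IsConj (r648 (c648 y)) y := fun y => isConj_iff.2 ⟨_, c648_conj y⟩
  exact ⟨fun h => (c648_iff.1 (isConj_iff.1 ((cj x).trans (isConj_iff.2 h)))).symm,
    fun h => isConj_iff.1 ((cj x).symm.trans (h ▸ cj y))⟩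

variable {G : Type*} [Group G] [Finite G] {φ : M648 →* G}

theorem int648 {ω : ℂ} (hω : ω ^ 2 + ω + 1 = 0) (χ : IrrCharacter G) : ∃ x : Fin 9 → ℤ, ∀ j, ((36 : ℤ) * x j : ℂ) =
    ∑ c, K9 j c * T9 (Complex.I * (ω - ω ^ 2)) (fun c => (χ : G → ℂ) (φ (r648 (c.castLE (by decide))))) c := by
  have ω3 : ω ^ 3 = 1 := by linear_combination (ω - 1) * hω
  have hI := Complex.I_sq
  have hc : ∀ p, ∃ q, q * r648 (c648 p) * q⁻¹ = p := fun p => ⟨_, c648_conj p⟩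
  have a := fun η hη => aff_diff φ 4 (k := ⟨17⟩) (l27_add 0) (by decide +kernel) hc (L := [((0, 0, 0), 4), ((0, 1, 0), 1),
    ((0, 2, 0), 1), ((1, 0, 0), 4), ((1, 1, 0), 4), ((1, 2, 0), 4), ((2, 1, 0), 4), ((2, 2, 0), 4), ((3, 1, 2), 9),
    ((3, 2, 2), 9), ((7, 1, 1), 9), ((7, 2, 3), 9), ((8, 1, 3), 9), ((8, 2, 1), 9), ((9, 0, 0), 1), ((10, 0, 2), 9),
    ((12, 0, 1), 9), ((12, 0, 3), 9)]) (by decide +kernel) ω3 (η := η) hη χ
  have b := fun η hη => aff_diff φ 2 (k := ⟨15⟩) (l27_add 1) (by decide +kernel) hc (L := [((0, 0, 0), 2), ((0, 1, 0), 2),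
    ((0, 2, 0), 2), ((1, 0, 0), 2), ((1, 1, 0), 5), ((1, 2, 0), 5), ((2, 0, 0), 4), ((2, 1, 0), 2), ((2, 2, 0), 2),
    ((4, 1, 1), 9), ((4, 2, 1), 9), ((9, 0, 0), 1), ((11, 0, 1), 9)]) (by decide +kernel) ω3 (η := η) hη χ
  have c := fun η hη => aff_diff φ 3 (k := ⟨4⟩) (l27_add 2) (by decide +kernel) hc (L := [((0, 1, 0), 3), ((0, 2, 0), 3),
    ((1, 0, 0), 6), ((1, 1, 0), 3), ((1, 2, 0), 3), ((2, 0, 0), 2), ((2, 1, 0), 3), ((2, 2, 0), 3), ((5, 1, 1), 9),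
    ((5, 2, 2), 9), ((6, 1, 2), 9), ((6, 2, 1), 9), ((9, 0, 0), 1), ((13, 0, 1), 9), ((13, 0, 2), 9)])
    (by decide +kernel) ω3 (η := η) hη χ
  simp only [List.map_cons, List.map_nil, List.sum_cons, List.sum_nil, show Fintype.card W27 = 27 from rfl] at a b c
  obtain ⟨a0, ha0⟩ := a 1 (by norm_num)
  obtain ⟨a1, ha1⟩ := a Complex.I (by norm_num)
  obtain ⟨a2, ha2⟩ := a (-1) (by norm_num)
  obtain ⟨a3, ha3⟩ := a (-Complex.I) (by norm_num [Even.neg_pow])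
  obtain ⟨b0, hb0⟩ := b 1 (by norm_num)
  obtain ⟨b1, hb1⟩ := b (-1) (by norm_num)
  obtain ⟨c0, hc0⟩ := c 1 (by norm_num)
  obtain ⟨c1, hc1⟩ := c ω ω3
  obtain ⟨c2, hc2⟩ := c (ω ^ 2) (by rw [← pow_mul, mul_comm, pow_mul, ω3, one_pow])
  clear a b c
  have : ∀ A B C D E F F' R R', A = (χ : G → ℂ) (φ (r648 0)) → B = (χ : G → ℂ) (φ (r648 1)) →
      C = (χ : G → ℂ) (φ (r648 2)) → D = (χ : G → ℂ) (φ (r648 3)) → E = (χ : G → ℂ) (φ (r648 4)) →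
      F = (χ : G → ℂ) (φ (r648 5)) → F' = (χ : G → ℂ) (φ (r648 6)) → R = (χ : G → ℂ) (φ (r648 7)) →
      R' = (χ : G → ℂ) (φ (r648 8)) → ∀ j, ((36 : ℤ) * (![-a1, a1 - c1, a1 - a3, c1 - c2, c1 - b0, -a0, a1 - c0, -a2,
        c1 - b1] j : ℤ) : ℂ) = ∑ c, K9 j c * T9 (Complex.I * (ω - ω ^ 2)) ![A, B, C, D, E, F, F', R, R'] c := by
    intro A B C D E F F' R R' hA hB hC hD hE hF hF' hR hR' j
    simp only [← hA, ← hB, ← hC, ← hD, ← hE, ← hF, ← hF', ← hR, ← hR'] at ha0 ha1 ha2 ha3 hb0 hb1 hc0 hc1 hc2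
    push_cast at ha0 ha1 ha2 ha3 hb0 hb1 hc0 hc1 hc2
    have e0 : (36 * a0 : ℂ) = -(A + 4 * B + 4 * C) - 9 * D - 9 * (R + R') := by
      linear_combination ha0 / 3 + (A + 4 * B + 4 * C + 9 * D + 9 * R + 9 * R') / 3 * hω
    have e2 : (36 * a2 : ℂ) = -(A + 4 * B + 4 * C) - 9 * D + 9 * (R + R') := by
      linear_combination ha2 / 3 + (A + 4 * B + 4 * C + 9 * D - 9 * R - 9 * R') / 3 * hω
    have e1 : (36 * a1 : ℂ) = -(A + 4 * B + 4 * C) + 9 * D + 3 * (Complex.I * (ω - ω ^ 2) * (R - R')) := by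
      linear_combination ha1 / 3 + (A + 4 * B + 4 * C - 9 * D) / 3 * hω + 3 * (D * (ω ^ 2 + ω - 2) +
        Complex.I * (R * (ω ^ 2 - 1) + R' * (ω - 1))) * hI
    have e3 : (36 * a3 : ℂ) = -(A + 4 * B + 4 * C) + 9 * D - 3 * (Complex.I * (ω - ω ^ 2) * (R - R')) := by
      linear_combination ha3 / 3 + (A + 4 * B + 4 * C - 9 * D) / 3 * hω + 3 * (D * (ω ^ 2 + ω - 2) -
        Complex.I * (R * (ω ^ 2 - 1) + R' * (ω - 1))) * hI
    have f0 : (36 * b0 : ℂ) = -2 * (2 * A + 5 * B + 2 * C) - 18 * E := by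
      linear_combination hb0 * 2 / 3 + (2 * A + 5 * B + 2 * C + 9 * E) * 2 / 3 * hω
    have f1 : (36 * b1 : ℂ) = -2 * (2 * A + 5 * B + 2 * C) + 18 * E := by
      linear_combination hb1 * 2 / 3 + (2 * A + 5 * B + 2 * C - 9 * E) * 2 / 3 * hω
    have g0 : (36 * c0 : ℂ) = -4 * (A + B + C) - 12 * (F + F') := by
      linear_combination hc0 * 4 / 9 + (A + B + C + 3 * F + 3 * F') * 4 / 3 * hω
    have g1 : (36 * c1 : ℂ) = -4 * (A + B + C) + 12 * F' := by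
      linear_combination hc1 * 4 / 9 + (A + B + C - 3 * F') * 4 / 3 * hω + 4 * (F * ω + 2 * F') * ω3
    have g2 : (36 * c2 : ℂ) = -4 * (A + B + C) + 12 * F := by
      linear_combination hc2 * 4 / 9 + (A + B + C - 3 * F) * 4 / 3 * hω +
        4 * (F * (ω ^ 3 + 2 - ω) + F' * (ω ^ 2 + ω - ω)) * ω3
    fin_cases j <;> simp [K9, T9, Fin.sum_univ_succ]
    exacts [by linear_combination -e1, by linear_combination e1 - g1, by linear_combination e1 - e3,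
      by linear_combination g1 - g2, by linear_combination g1 - f0, by linear_combination -e0,
      by linear_combination e1 - g0, by linear_combination -e2, by linear_combination g1 - f1]
  exact ⟨_, this _ _ _ _ _ _ _ _ _ rfl rfl rfl rfl rfl rfl rfl rfl rfl⟩

end H25
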