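import Cfsg.Agent.H5.N9d

/-! A group in which `3³ : S₄` controls the strongly closed subgroup `3³` (conclusion). -/

set_option autoImplicit false
set_option linter.unusedSectionVars false

namespace H25

open Cfsg H17 H19 Subgroup Finset

theorem T9_gram {ι : Type*} [Fintype ι] {s : ℂ} (ss : s * s = 3) {X : Fin 9 → ι → ℂ} (h : ∀ c c', ∑ i, X c i * X c' i =
    if c = c' then ((![108, 54, 81, 12, 6, 9, 9, 12, 12] c : ℕ) : ℂ) else 0) (c c' : Fin 9) :
    ∑ i, T9 s (X · i) c * T9 s (X · i) c' = if c = c' then ((![108, 54, 81, 12, 6, 9, 9, 24, 72] c : ℤ) : ℂ) else 0 := by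
  rw [T9_sum s (β := fun c => T9 s (fun c' => if c' = c then ((![108, 54, 81, 12, 6, 9, 9, 12, 12] c' : ℕ) : ℂ) else 0) c')
    fun c => (sum_congr rfl fun _ _ => mul_comm _ _).trans (T9_sum s (h · c) c')]
  fin_cases c <;> fin_cases c' <;> simp [T9]
  · norm_num
  · linear_combination 24 * ss

theorem T9_st (s a : ℂ) (j : Fin 3) (k : Fin 9) : (∑ c, K9 k c * T9 s (fun c => a * (![![18, 9, 0, 6, 0, 0, 0, 0, 0],
    ![0, 0, 0, 0, 3, 0, 0, 6, 6], ![18, 9, 27, 6, 0, 9, 9, 0, 0]] j c : ℕ)) c) = 36 * (a * (((![![0, 6, 0, 0, 3, 6, 6, 6, 3],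
      ![0, 0, 0, 0, 3, 6, 0, -6, -3], ![6, 0, 0, 0, 9, 12, 18, 12, 9]] j k : ℤ) : ℂ) / 2)) := by
  fin_cases j <;> fin_cases k <;> simp [K9, T9, Fin.sum_univ_succ] <;> ring

theorem T9_triv (s : ℂ) (j : Fin 9) : ∑ c, K9 j c * T9 s (fun _ => 1) c = (36 : ℤ) * t9 j := by
  fin_cases j <;> simp [K9, T9, t9, Fin.sum_univ_succ] <;> norm_num

theorem c648_r : ∀ c, c648 (r648 c) = c ∧ c648 (r648 c)⁻¹ = c := by decide +kernel

variable {G : Type*} [Group G] [Finite G] {φ : M648 →* G}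

set_option maxHeartbeats 1000000 in
theorem L3.top648 (h : L3 φ .tr) : φ.range = ⊤ := by
  classical
  obtain ⟨ω, hω⟩ := exists_omega
  choose x hx using int648 (φ := φ) hω
  have hx := fun j χ => hx χ j
  have ss : Complex.I * (ω - ω ^ 2) * (Complex.I * (ω - ω ^ 2)) = 3 := by
    linear_combination (ω - ω ^ 2) ^ 2 * Complex.I_sq - (ω ^ 2 - 3 * ω + 3) * hω
  generalize Complex.I * (ω - ω ^ 2) = s at hx ss
  have cj : ∀ (c : Fin 9) y, IsConj (φ (r648 (c.castLE (by decide)))) (φ y) ↔ c648 y = c.castLE (by decide) :=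
    fun c y => (h.conj_iff (c648_cz c).1).trans c648_iff
  have cm : ∀ {c y}, c648 y = c → IsConj (φ (r648 c)) (φ y) := fun k => φ.map_isConj (isConj_iff.2 (c648_iff.2 k))
  have re : ∀ c, IsConj (φ (r648 c)) (φ (r648 c))⁻¹ := fun c => map_inv φ _ ▸ cm (c648_r c).2
  have oX : ∀ (c : Fin 9) (c' : Fin 14), ∑ χ : IrrCharacter G, (χ : G → ℂ) (φ (r648 (c.castLE (by decide)))) *
      (χ : G → ℂ) (φ (r648 c')) = if c.castLE (by decide) = c' then
        ((![108, 54, 81, 12, 6, 9, 9, 12, 12] c : ℕ) : ℂ) else 0 := fun c c' => by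
    simp only [fun χ : IrrCharacter G => χ.2.isClassFunction.of_isConj (re c')]
    split_ifs with k
    · rw [← k, col_self, h.cz_eq (c648_cz c)]
    · exact col_ne fun e => k (((cj c _).1 e).symm.trans (c648_r c').1)
  have hG := lin_gram hx (G := G9) (T9_gram ss fun c c' => (oX c (c'.castLE (by decide))).trans (by
    simp only [Fin.castLE_inj])) (by decide) (by decide)
  have rat : ∀ c : Fin 14, c = 9 ∨ c = 10 ∨ c = 11 → RatE (φ (r648 c)) := fun c k =>
    ratE_of_two (by rw [← map_pow, show r648 c ^ 2 = 1 by revert c; decide +kernel, map_one])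
  have o : ∀ c : Fin 14, c = 9 ∨ c = 10 ∨ c = 11 → ∀ j, ∑ χ, x χ j * iv χ (φ (r648 c)) = 0 := fun c k j => by
    have := lin_sum hx (w := fun χ => iv χ (φ (r648 c))) (T9_sum s (β := 0) fun c' => by
      simp only [(rat c k).cast, oX]
      exact if_neg (by revert c c'; decide)) j
    rw [sum_eq_zero (s := univ) (f := fun c => (K9 j c : ℂ) * T9 s 0 c) fun c _ => by fin_cases c <;> simp [T9]] at this
    exact_mod_cast (mul_eq_zero.1 this).resolve_left (by norm_num)
  have sd := o 9 (by decide)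
  rw [show r648 9 = 1 by decide, map_one] at sd
  have nb : ¬ T3Bad (fun v => φ (.tr v)) φ.range ⟨4⟩ := fun ⟨_, ⟨p, rfl⟩, k1, k2, k3⟩ => k2 p.v
    (congrArg φ (c648_bad 1 p (h.inj (by simpa using k1)) (h.inj (by rw [map_mul, map_mul]; exact k3.eq))).symm)
  have n45 : ¬ IsConj (φ (r648 10)) (φ (r648 11)) := fun k => absurd (c648_iff.1 (h.conj_cent' (u := ⟨1⟩) nb
    (by decide) (by decide) (by decide) (by decide) k)) (by decide)
  have sq : ∀ {c : Fin 14} {y : M648}, IsConj (φ (r648 c)) (φ y) → r648 c * r648 c = 1 ∧ r648 c ≠ 1 →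
      c648 y = 10 ∨ c648 y = 11 := fun {c y} k hs => by
    obtain ⟨g, hg⟩ := isConj_iff.1 k
    refine (c648_two y (h.inj (by rw [map_mul, ← hg, conj_mul, ← map_mul, hs.1]; simp))).resolve_left
      fun e => hs.2 (h.inj ?_)
    rwa [e, map_one, conj_eq_one_iff, ← map_one φ] at hg
  have ci : ∀ c : Fin 14, c = 10 ∨ c = 11 → ∀ y, IsConj (φ (r648 c)) (φ y) ↔ c648 y = c := fun c k y => ⟨fun e => by
    rcases k with rfl | rfl
    · exact (sq e (by decide)).resolve_right fun k => n45 (e.trans (cm k).symm)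
    · exact (sq e (by decide)).resolve_left fun k => n45 ((cm k).trans e.symm), cm⟩
  have st : ∀ (j : Fin 3) k, (Nat.card G : ℚ) * ∑ χ, (iv χ (φ (r648 (![10, 10, 11] j))) *
      iv χ (φ (r648 (![10, 11, 11] j))) * x χ k : ℚ) / iv χ 1 = cz (φ (r648 (![10, 10, 11] j))) *
      cz (φ (r648 (![10, 11, 11] j))) * (((![![0, 6, 0, 0, 3, 6, 6, 6, 3], ![0, 0, 0, 0, 3, 6, 0, -6, -3],
        ![6, 0, 0, 0, 9, 12, 18, 12, 9]] j k : ℤ) : ℚ) / 2) := fun j k => by
    obtain ⟨k1, k2, k3, k4⟩ : (![10, 10, 11] j = (10 : Fin 14) ∨ ![10, 10, 11] j = (11 : Fin 14)) ∧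
        (![10, 11, 11] j = (10 : Fin 14) ∨ ![10, 11, 11] j = (11 : Fin 14)) ∧ r648 (![10, 10, 11] j) *
        r648 (![10, 10, 11] j) = 1 ∧ r648 (![10, 11, 11] j) * r648 (![10, 11, 11] j) = 1 := by revert j; decide +kernel
    have r1 := rat _ (.inr k1)
    have r2 := rat _ (.inr k2)
    have k5 : ∀ c : Fin 9, ∑ χ : IrrCharacter G, (χ : G → ℂ) (φ (r648 (c.castLE (by decide)))) * (Nat.card G *
        (iv χ (φ (r648 (![10, 10, 11] j))) * iv χ (φ (r648 (![10, 11, 11] j)))) / iv χ 1) = (cz (φ (r648 (![10, 10, 11] j))) : ℂ) *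
        cz (φ (r648 (![10, 11, 11] j))) * (![![18, 9, 0, 6, 0, 0, 0, 0, 0], ![0, 0, 0, 0, 3, 0, 0, 6, 6],
          ![18, 9, 27, 6, 0, 9, 9, 0, 0]] j c : ℕ) := fun c => by
      have := struct_const (φ (r648 (![10, 10, 11] j))) (φ (r648 (![10, 11, 11] j))) (φ (r648 (c.castLE (by decide))))
      rw [h.ncl_eq (ci _ k1) (ci _ k2) ⟨k3, k4, (c648_cz c).1, c648_ncl j c⟩, mul_sum] at this
      refine Eq.trans (sum_congr rfl fun χ _ => ?_) this
      rw [r1.inv, r2.inv, ← ratE_one.cast]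
      ring
    have := lin_sum hx (T9_sum s k5) k
    rw [T9_st] at this
    apply Rat.cast_injective (α := ℂ)
    push_cast at this ⊢
    rw [mul_sum]
    exact (sum_congr rfl fun χ _ => by ring).trans (mul_left_cancel₀ (by norm_num) this)
  have ps : ∀ {a : ℚ}, 0 < (Nat.card G : ℚ) * a → 0 < a := fun k => (pos_iff_pos_of_mul_pos k).1 (Nat.cast_pos.2 Nat.card_pos)
  have cp : ∀ g : G, (0 : ℚ) < cz g := fun g => Nat.cast_pos.2 Nat.card_pos
  have hS : ∀ j, ∑ χ, x χ j = S9 j := fun j => by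
    have sg := fun (k : G9 j j = 4) => Sg.main Nat.card_pos Nat.card_pos Nat.card_pos iv_one_pos (sd j) (o 10 (by decide) j)
      (o 11 (by decide) j) (by simpa only [pow_two, k] using hG j j) (st 0 j) (st 1 j) (st 2 j)
    fin_cases j
    · exact sum_of_three iv_one_pos (sd 0) (o 11 (by decide) 0) (ps ((mul_pos (mul_pos (cp _) (cp _))
        (by simp)).trans_eq (st 2 0).symm)) (hG 0 0)
    · exact sum_of_three iv_one_pos (sd 1) (o 10 (by decide) 1) (ps ((mul_pos (mul_pos (cp _) (cp _))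
        (by simp)).trans_eq (st 0 1).symm)) (hG 1 1)
    · exact sum_of_two iv_one_pos (sd 2) (hG 2 2)
    · exact sum_of_two iv_one_pos (sd 3) (hG 3 3)
    all_goals exact (sg rfl (by simp <;> norm_num)).sum
  have hr : ∀ a b : W27, a ≠ 0 → (IsConj (φ (.tr a)) (φ (.tr b)) ↔ c648 (.tr a) = c648 (.tr b)) := fun a b ha =>
    (h.conj_iff ⟨1, a, ha, pow_one _⟩).trans c648_iff'
  have r0 : RatE (φ (.tr ⟨1⟩)) := ratE_of_three (h.t3.cube _) (re 0)
  have r1 : RatE (φ (.tr ⟨4⟩)) := ratE_of_three (h.t3.cube _) (re 1)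
  have r2 : RatE (φ (.tr ⟨13⟩)) := ratE_of_three (h.t3.cube _) (re 2)
  have e1 := struct_iv r1 r1 r0
  have e2 := struct_iv r0 r1 r2
  have e3 := struct_iv r1 r1 r2
  have z0 : cz (φ (.tr ⟨1⟩)) = 108 := h.cz_eq (c648_cz 0)
  have z1 : cz (φ (.tr ⟨4⟩)) = 54 := h.cz_eq (c648_cz 1)
  rw [h.t3.ncl_eq hr (by decide) (by decide) (by decide) (by decide) fun k => nb k.1, z1,
    show card _ = 4 by decide +kernel] at e1
  rw [h.t3.ncl_eq hr (by decide) (by decide) (by decide) (by decide) fun k => nb k.2.1, z0, z1,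
    show card _ = 3 by decide +kernel] at e2
  rw [h.t3.ncl_eq hr (by decide) (by decide) (by decide) (by decide) fun k => nb k.1, z1,
    show card _ = 6 by decide +kernel] at e3
  refine eq_top_of_index h.t3.dvd_index ?_
  rw [← Nat.card_congr (MonoidHom.ofInjective h.inj).toEquiv, Nat.card_eq_fintype_card (α := M648),
    show (Fintype.card W27 + 1) * Fintype.card M648 = 18144 by decide +kernel]
  refine n9_arith (x := fun j χ => x χ j) (o := triv G) iv_one_pos (iv_triv _) hG (fun j => ?_) sd hS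
    (fun χ => Int.cast_injective (α := ℂ) ((r0.cast χ).trans (lin_inv hx (c₀ := 0) (by decide) (by decide) χ).symm))
    (fun χ => Int.cast_injective (α := ℂ) ((r1.cast χ).trans (lin_inv hx (c₀ := 1) (by decide) (by decide) χ).symm))
    (fun χ => Int.cast_injective (α := ℂ) ((r2.cast χ).trans (lin_inv hx (c₀ := 2) (by decide) (by decide) χ).symm))
    (fun χ => ?_) (e1.trans (by norm_num)) (e2.trans (by norm_num)) (e3.trans (by norm_num))
  · exact Int.cast_injective (α := ℂ) (mul_left_cancel₀ (by norm_num) ((hx j (triv G)).trans (T9_triv s j)))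
  obtain ⟨m, hm⟩ := h.t3.sum_mul χ.2.isCharacter (fun _ => 1) rfl (by simp)
  have := sum_tab (f := fun v => c648 (.tr v)) (L := [(9, 1), (0, 6), (1, 12), (2, 8)]) (by decide +kernel)
    fun c => (χ : G → ℂ) (φ (r648 c))
  simp only [fun v => χ.2.isClassFunction.of_isConj (cm (y := .tr v) rfl), List.map_cons, List.map_nil, List.sum_cons,
    List.sum_nil, show r648 9 = 1 by decide, map_one, show r648 0 = .tr ⟨1⟩ by decide, show r648 1 = .tr ⟨4⟩ by decide,
    show r648 2 = .tr ⟨13⟩ by decide] at this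
  simp only [mul_one, this, show Fintype.card W27 = 27 from rfl] at hm
  have : (iv χ 1 + 6 * iv χ (φ (.tr ⟨1⟩)) + 12 * iv χ (φ (.tr ⟨4⟩)) + 8 * iv χ (φ (.tr ⟨13⟩)) : ℂ) = 27 * m := by
    rw [ratE_one.cast, r0.cast, r1.cast, r2.cast]
    push_cast at hm
    linear_combination hm
  have : iv χ 1 + 6 * iv χ (φ (.tr ⟨1⟩)) + 12 * iv χ (φ (.tr ⟨4⟩)) + 8 * iv χ (φ (.tr ⟨13⟩)) = 27 * m := by
    exact_mod_cast this
  omega

end H25
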