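import Cfsg.Agent.H5.N9e

/-! The permutation model of `3³ : S₄` on nine points. -/

set_option autoImplicit false
set_option linter.unusedSectionVars false

namespace H25

open Cfsg H17 H19 Subgroup

/-- the action of the translations -/
def aV9 (v : W27) (x : Fin 9) : Fin 9 := lk (nat_lit 8) (nat_lit
  0x1cc820ca1008e641065008273208328820399032902011cc819480104e640ca410407320a4184023990520c0209cc829062080c8390650804641c8328041320e4194410190719481008c838ca40082641c6520820320e520c201190729060104c83948310408398832840241cc4194020a0e620ca20810730ca408048398652004141cc329041020e629061009073148300828398a418820)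
  (Nat.add (Nat.mul (nat_lit 9) v.i.1) x.1)

/-- the action of the complement -/
def aK9 (k : K24) (x : Fin 9) : Fin 9 := lk (nat_lit 8) (nat_lit
  0x1040520d063880129068398410146441cc2004a3220c72906831c410148341cc2004a3220e6104051910638801418e2080a41a0e61002520d073082028c8831c400946428c8200507314641040831ca418801418e520c41020e610028398a320820418e5190400a0c729062081073148341cc5190400a0c728c82081063948310028398a418820)
  (Nat.add (Nat.mul (nat_lit 9) k.i.1) x.1)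

theorem a9_rel : (∀ u v x, aV9 (u + v) x = aV9 u (aV9 v x)) ∧ (∀ k l x, aK9 (k * l) x = aK9 k (aK9 l x)) ∧
    ∀ k v x, aV9 (k • v) (aK9 k x) = aK9 k (aV9 v x) := by decide +kernel

/-- the action on nine points -/
@[reducible] def act9 : MulAction M648 (Fin 9) where
  smul p x := aV9 p.v (aK9 p.k x)
  one_smul := by decide +kernel
  mul_smul p q x := by
    change aV9 (p.v + p.k • q.v) (aK9 (p.k * q.k) x) = aV9 p.v (aK9 p.k (aV9 q.v (aK9 q.k x)))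
    rw [a9_rel.1, a9_rel.2.1, a9_rel.2.2]

/-- the permutation representation -/
def psi9 : M648 →* Equiv.Perm (Fin 9) := @MulAction.toPermHom M648 (Fin 9) _ act9

theorem psi9_apply (p : M648) (x : Fin 9) : psi9 p x = aV9 p.v (aK9 p.k x) := rfl

theorem psi9_inj : Function.Injective psi9 := (injective_iff_map_eq_one _).2 fun p h =>
  (by decide +kernel : ∀ p : M648, (∀ x, aV9 p.v (aK9 p.k x) = x) → p = 1) p fun x => congrArg (· x) h

theorem gen648 : Subgroup.closure ({⟨⟨1⟩, 1⟩, ⟨0, ⟨4⟩⟩, ⟨0, ⟨3⟩⟩, ⟨0, ⟨15⟩⟩} : Set M648) = ⊤ := by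
  refine eq_top_iff.2 fun p _ => ?_
  generalize hS : Subgroup.closure (G := M648) _ = S
  obtain ⟨a, b, c, d⟩ : (⟨⟨1⟩, 1⟩ : M648) ∈ S ∧ (⟨0, ⟨4⟩⟩ : M648) ∈ S ∧ (⟨0, ⟨3⟩⟩ : M648) ∈ S ∧
      (⟨0, ⟨15⟩⟩ : M648) ∈ S := by
    subst hS
    refine ⟨?_, ?_, ?_, ?_⟩ <;> exact Subgroup.subset_closure (by simp)
  obtain ⟨i, j, k, e1⟩ := (by decide +kernel : ∀ v : W27, ∃ i j k : Fin 3, (⟨v, 1⟩ : M648) = ⟨⟨1⟩, 1⟩ ^ i.1 *
    (⟨0, ⟨4⟩⟩ * ⟨⟨1⟩, 1⟩ * (⟨0, ⟨4⟩⟩ : M648)⁻¹) ^ j.1 * ((⟨0, ⟨4⟩⟩ : M648)⁻¹ * ⟨⟨1⟩, 1⟩ * ⟨0, ⟨4⟩⟩) ^ k.1) p.v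
  obtain ⟨l, m, n, o, e2⟩ := (by decide +kernel : ∀ k : K24, ∃ l m n o : Fin 3, (⟨0, k⟩ : M648) = ⟨0, ⟨3⟩⟩ ^ l.1 *
    (⟨0, ⟨4⟩⟩ * ⟨0, ⟨3⟩⟩ * (⟨0, ⟨4⟩⟩ : M648)⁻¹) ^ m.1 * ⟨0, ⟨4⟩⟩ ^ n.1 * ⟨0, ⟨15⟩⟩ ^ o.1) p.k
  rw [show p = ⟨p.v, 1⟩ * ⟨0, p.k⟩ from Aff.ext (by simp [Aff.mul_def]) (one_mul _).symm, e1, e2]
  exact mul_mem (mul_mem (mul_mem (pow_mem a _) (pow_mem (mul_mem (mul_mem b a) (inv_mem b)) _))
    (pow_mem (mul_mem (mul_mem (inv_mem b) a) b) _)) (mul_mem (mul_mem (mul_mem (pow_mem c _)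
      (pow_mem (mul_mem (mul_mem b c) (inv_mem b)) _)) (pow_mem b _)) (pow_mem d _))

theorem psi9_range : psi9.range = Subgroup.closure ({Equiv.swap (0 : Fin 9) 1 * Equiv.swap 1 2,
    Equiv.swap (0 : Fin 9) 3 * Equiv.swap 3 6 * (Equiv.swap (1 : Fin 9) 4 * Equiv.swap 4 7) *
      (Equiv.swap (2 : Fin 9) 5 * Equiv.swap 5 8), Equiv.swap (0 : Fin 9) 1 * Equiv.swap 3 4,
    Equiv.swap (0 : Fin 9) 3 * Equiv.swap 1 4 * Equiv.swap 2 5 * Equiv.swap 6 7} : Set (Equiv.Perm (Fin 9))) := by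
  rw [MonoidHom.range_eq_map, ← gen648, MonoidHom.map_closure]
  simp only [Set.image_insert_eq, Set.image_singleton]
  congr 2
  · exact Equiv.ext (by decide +kernel)
  congr 1
  · exact Equiv.ext (by decide +kernel)
  congr 1
  · exact Equiv.ext (by decide +kernel)
  · exact congrArg _ (Equiv.ext (by decide +kernel))

theorem pCore648 {H : Type*} [Group H] (e : M648 ≃* H) (x : H) : x ∈ pCore 3 H ↔ ∃ v, e (.tr v) = x := by
  let kh : H →* K24 := (MonoidHom.mk' (fun p : M648 => p.k) fun _ _ => rfl).comp e.symm.toMonoidHom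
  have hk : ∀ p, kh (e p) = p.k := fun p => congrArg Aff.k (e.symm_apply_apply p)
  have : pCore 3 H = kh.ker := by
    refine le_antisymm (sSup_le fun P ⟨hP, hP3⟩ x hx => ?_) (le_sSup ⟨inferInstance, fun ⟨x, hx⟩ => ⟨1, ?_⟩⟩)
    · obtain ⟨p, rfl⟩ := e.surjective x
      by_contra k
      obtain ⟨g, i, k1, k2⟩ := (by decide +kernel : ∀ k : K24, k ≠ 1 → ∃ g, ∃ i : Fin 2,
        (k ^ i.1 * (g * k * g⁻¹)) ^ 4 = 1 ∧ k ^ i.1 * (g * k * g⁻¹) ≠ 1) p.k (fun h => k ((hk p).trans h))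
      obtain ⟨n, hn⟩ := hP3 ⟨_, mul_mem (pow_mem hx i.1) (hP.conj_mem _ hx (e ⟨0, g⟩))⟩
      have := congrArg (fun y : P => kh y.1) hn
      simp only [SubmonoidClass.coe_pow, map_pow, map_mul, map_inv, hk, OneMemClass.coe_one, map_one] at this
      exact k2 ((pow_eq_one_iff_of_coprime (Nat.Coprime.pow_left n (by decide))).1 ⟨this, k1⟩)
    · obtain ⟨p, rfl⟩ := e.surjective x
      refine Subtype.ext ?_
      change e p ^ 3 ^ 1 = 1
      rw [← map_pow, (by decide +kernel : ∀ p : M648, p.k = 1 → p ^ 3 ^ 1 = 1) p ((hk p).symm.trans hx), map_one]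
  rw [this]
  obtain ⟨p, rfl⟩ := e.surjective x
  exact ⟨fun h => ⟨p.v, congrArg e (Aff.ext rfl ((hk p).symm.trans h).symm)⟩, fun ⟨v, h⟩ => h ▸ hk _⟩

theorem top_of_sc {G : Type*} [Group G] [Finite G] {H : Subgroup G} (e : M648 ≃* H)
    (hC : ∀ j ∈ (pCore 3 H).map H.subtype, j ≠ 1 → centralizer {j} ≤ H)
    (hsc : IsStronglyClosed ((pCore 3 H).map H.subtype) H) : H = ⊤ := by
  let φ : M648 →* G := H.subtype.comp e.toMonoidHom
  have hi : Function.Injective φ := H.subtype_injective.comp e.injective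
  have hr : φ.range = H := le_antisymm (fun _ ⟨p, h⟩ => h ▸ (e p).2) fun x hx =>
    ⟨e.symm ⟨x, hx⟩, congrArg Subtype.val (e.apply_symm_apply _)⟩
  have hJ : ∀ x, x ∈ (pCore 3 H).map H.subtype ↔ ∃ v, φ (.tr v) = x := fun x =>
    ⟨fun ⟨y, hy, k⟩ => let ⟨v, hv⟩ := (pCore648 e y).1 hy; ⟨v, k ▸ congrArg Subtype.val hv⟩,
      fun ⟨v, hv⟩ => ⟨_, (pCore648 e _).2 ⟨v, rfl⟩, hv⟩⟩
  have ti : Function.Injective fun v => φ (.tr v) := fun u v h => congrArg Aff.v (hi h)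
  have ce : ∀ v, v ≠ 0 → ∀ g, Commute g (φ (.tr v)) → g ∈ φ.range := fun v hv g hg => by
    rw [hr]
    exact hC _ ((hJ _).2 ⟨v, rfl⟩) (fun k => hv (ti (k.trans (map_one φ).symm)))
      (mem_centralizer_singleton_iff.2 hg)
  rw [← hr]
  refine L3.top648 ⟨hi, fun u v => ?_, ti, by decide +kernel, ce, fun v g hg k => ?_, fun g hg => ?_⟩
  · rw [← map_mul, show Aff.tr u * .tr v = (.tr (u + v) : M648) from
      Aff.ext (congrArg (u + ·) (one_smul K24 v)) (one_mul _)]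
  · obtain ⟨c, rfl⟩ := isConj_iff.1 k
    exact (hJ _).1 (hsc.2 _ ((hJ _).2 ⟨v, rfl⟩) c (hr ▸ hg))
  obtain ⟨w, hw⟩ := hg ⟨1⟩
  have w0 : w ≠ 0 := fun k => absurd (hi ((conj_eq_one_iff.1 (hw.symm.trans (k ▸ map_one φ))).trans
    (map_one φ).symm)) (by decide)
  have c1 : Commute (g * φ ⟨0, ⟨17⟩⟩ * g⁻¹) (φ (.tr w)) := by
    rw [hw, Commute, SemiconjBy, conj_mul, conj_mul, ← map_mul, ← map_mul,
      show (⟨0, ⟨17⟩⟩ * .tr ⟨1⟩ : M648) = .tr ⟨1⟩ * ⟨0, ⟨17⟩⟩ by decide +kernel]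
  obtain ⟨p, hp⟩ := ce w w0 _ c1
  obtain ⟨q, hq⟩ := c648_iff'.2 ((by decide +kernel : ∀ p : M648, p ^ 4 = 1 → p ^ 2 ≠ 1 → ∀ w, w ≠ 0 →
      p * .tr w = .tr w * p → c648 (.tr ⟨1⟩) = c648 (.tr w)) p
    (hi (by rw [map_pow, hp, conj_pow, ← map_pow, show (⟨0, ⟨17⟩⟩ : M648) ^ 4 = 1 by decide +kernel]; simp))
    (fun k => absurd (hi (a₁ := ⟨0, ⟨17⟩⟩ ^ 2) (a₂ := 1) (by
      rw [map_pow, map_one, ← conj_eq_one_iff (a := g), ← conj_pow, ← hp, ← map_pow, k, map_one])) (by decide +kernel))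
    w w0 (hi (by rw [map_mul, map_mul, hp, c1.eq])))
  have := ce ⟨1⟩ (by decide) ((φ q)⁻¹ * g) (by
    have := congrArg φ hq
    rw [map_mul, map_mul, map_inv, hw] at this
    rw [Commute, SemiconjBy, ← mul_inv_eq_iff_eq_mul, mul_inv_rev, inv_inv, ← mul_assoc, mul_assoc _ g, mul_assoc _ (g * _),
      ← this]
    group)
  simpa using mul_mem (MonoidHom.mem_range.2 ⟨q, rfl⟩) this

end H25
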